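import Cfsg.Agent.BGroupsAll.Quaternion

/-!
Conjugacy of all subgroups of equal order from conjugacy of the abelian ones.
-/

set_option autoImplicit false
set_option linter.style.haveILetI false

namespace CfsgLib.BGroupsAll

open CfsgLib.BGroups

universe u

/-- In an elementary abelian group a subgroup containing `v` and avoiding `w` can have any small order. -/
theorem exists_subgroup_mem_not_mem {A : Type*} [CommGroup A] [Finite A] {q : ℕ} [Fact q.Prime]
    (hexp : ∀ x : A, x ^ q = 1) {U : Subgroup A} (hU1 : U ≠ ⊥) (hU2 : U ≠ ⊤) {v w : A}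
    (hw : w ∉ Subgroup.zpowers v) :
    ∃ L : Subgroup A, v ∈ L ∧ w ∉ L ∧ Nat.card L = Nat.card U := by
  have hq := (Fact.out : q.Prime)
  have hp : ∀ L : Subgroup A, IsPGroup q L := fun L x => ⟨1, Subtype.ext (by simpa using hexp x)⟩
  have hpow : ∀ L : Subgroup A, ∃ n, Nat.card L = q ^ n := fun L => IsPGroup.iff_card.1 (hp L)
  obtain ⟨a, ha⟩ := hpow U
  obtain ⟨n, hn⟩ := hpow (⊤ : Subgroup A)
  have han : a < n := by
    by_contra h
    exact hU2 (Subgroup.eq_of_le_of_card_ge le_top (by rw [ha, hn]; exact Nat.pow_le_pow_right hq.pos (by omega)))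
  have ha0 : 1 ≤ a := by
    by_contra h
    exact hU1 (Subgroup.eq_bot_of_card_eq _ (by rw [ha, show a = 0 by omega, pow_zero]))
  have hz : ∀ x : A, Nat.card (Subgroup.zpowers x) ≤ q := fun x => by
    rw [Nat.card_zpowers]; exact Nat.le_of_dvd hq.pos (orderOf_dvd_of_pow_eq_one (hexp x))
  have hsup : ∀ (L : Subgroup A) (x : A), Nat.card ↥(L ⊔ Subgroup.zpowers x) ≤ Nat.card L * q := by
    intro L x
    refine le_trans ?_ (Nat.mul_le_mul_left _ (hz x))
    rw [← Nat.card_prod]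
    refine Nat.card_le_card_of_surjective (fun t : L × Subgroup.zpowers x =>
      ⟨(t.1 : A) * (t.2 : A), Subgroup.mul_mem_sup t.1.2 t.2.2⟩) ?_
    rintro ⟨y, hy⟩
    obtain ⟨b, hb, c, hc, rfl⟩ := Subgroup.mem_sup.1 hy
    exact ⟨(⟨b, hb⟩, ⟨c, hc⟩), rfl⟩
  let S : Set (Subgroup A) := {L | v ∈ L ∧ w ∉ L ∧ Nat.card L ≤ q ^ a}
  obtain ⟨L, ⟨⟨hvL, hwL, hLc⟩, hLmax⟩⟩ := (Set.toFinite S).exists_maximal
    ⟨Subgroup.zpowers v, Subgroup.mem_zpowers v, hw, (hz v).trans (Nat.le_self_pow (by omega) q)⟩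
  refine ⟨L, hvL, hwL, ?_⟩
  obtain ⟨b, hb⟩ := hpow L
  have hba : b ≤ a := by rw [hb] at hLc; exact (Nat.pow_le_pow_iff_right hq.one_lt).1 hLc
  rw [hb, ha]
  by_contra hne
  have hlt : b < a := lt_of_le_of_ne hba (fun e => hne (by rw [e]))
  have hnot : ¬ (⊤ : Subgroup A) ≤ L ⊔ Subgroup.zpowers w := by
    intro h
    have h1 := (Subgroup.card_le_of_le h).trans (hsup L w)
    rw [hn, hb, ← pow_succ] at h1
    have := (Nat.pow_le_pow_iff_right hq.one_lt).1 h1
    omega
  obtain ⟨x, -, hx⟩ := SetLike.not_le_iff_exists.1 hnot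
  have hxL : x ∉ L := fun h => hx (Subgroup.mem_sup_left h)
  have hw' : w ∉ L ⊔ Subgroup.zpowers x := by
    intro h
    obtain ⟨l, hl, c, hc, hlc⟩ := Subgroup.mem_sup.1 h
    obtain ⟨i, rfl⟩ := Subgroup.mem_zpowers_iff.1 hc
    have hx' : x ^ i ∈ L ⊔ Subgroup.zpowers w := by
      rw [eq_inv_mul_of_mul_eq hlc]
      exact Subgroup.mul_mem_sup (inv_mem hl) (Subgroup.mem_zpowers w)
    by_cases hi : (q : ℤ) ∣ i
    · obtain ⟨j, rfl⟩ := hi
      rw [zpow_mul, zpow_natCast, hexp, one_zpow, mul_one] at hlc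
      exact hwL (hlc ▸ hl)
    · have hco : IsCoprime i (q : ℤ) := by
        rw [Int.isCoprime_iff_gcd_eq_one, Int.gcd_comm]
        exact hq.coprime_iff_not_dvd.2 (fun h => hi (Int.natCast_dvd.2 h))
      obtain ⟨s, t, hst⟩ := hco
      refine hx ?_
      have : x = (x ^ i) ^ s := by
        calc x = x ^ (s * i + t * q) := by rw [hst, zpow_one]
          _ = (x ^ i) ^ s := by
            rw [zpow_add, mul_comm t, zpow_mul x (q : ℤ), zpow_natCast, hexp, one_zpow, mul_one, mul_comm, zpow_mul]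
      rw [this]
      exact zpow_mem hx' s
  have hmem : L ⊔ Subgroup.zpowers x ∈ S :=
    ⟨Subgroup.mem_sup_left hvL, hw', (hsup L x).trans (by
      rw [hb, ← pow_succ]; exact Nat.pow_le_pow_right hq.pos hlt)⟩
  exact hxL ((hLmax hmem le_sup_left) (Subgroup.mem_sup_right (Subgroup.mem_zpowers x)))

variable {X : Type u} [Group X] [Finite X]

/-- A normal subgroup normalising a proper non-trivial subgroup of `V` acts by scalars, hence centrally. -/
theorem central_action (hB : BCond X) {q : ℕ} [Fact q.Prime] (V : Subgroup X) [V.Normal] [IsMulCommutative V]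
    (hexp : ∀ x ∈ V, x ^ q = 1) {U : Subgroup X} (hUV : U ≤ V) (hU1 : U ≠ ⊥) (hU2 : U ≠ V)
    (N : Subgroup X) [N.Normal] (hN : N ≤ Subgroup.normalizer (U : Set X)) :
    ∀ g ∈ N, ∀ x : X, g⁻¹ * (x * g * x⁻¹) ∈ Subgroup.centralizer (V : Set X) := by
  classical
  letI : CommGroup V := { (inferInstance : Group V) with mul_comm := fun a b => mul_comm' a b }
  -- every conjugate of `U` is normalised by `N`
  have hall : ∀ U' : Subgroup X, U' ≤ V → Nat.card U' = Nat.card U → ∀ g ∈ N, ∀ u ∈ U', g * u * g⁻¹ ∈ U' := by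
    intro U' hU' hc g hg u hu
    have hab : ∀ Y : Subgroup X, Y ≤ V → IsMulCommutative Y := fun Y hY =>
      ⟨⟨fun a b => Subtype.ext (congrArg Subtype.val (mul_comm' (⟨a, hY a.2⟩ : V) ⟨b, hY b.2⟩) :)⟩⟩
    obtain ⟨y, rfl⟩ := hB U U' (hab U hUV) (hab U' hU') hc.symm
    obtain ⟨u0, hu0, rfl⟩ := hu
    have h1 : y⁻¹ * g * y ∈ N := by simpa using (inferInstance : N.Normal).conj_mem g hg y⁻¹
    refine ⟨(y⁻¹ * g * y) * u0 * (y⁻¹ * g * y)⁻¹, (Subgroup.mem_normalizer_iff.1 (hN h1) u0).1 hu0, ?_⟩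
    simp [mul_assoc]
  -- every line is normalised
  have hline : ∀ g ∈ N, ∀ v ∈ V, ∃ a : ℤ, g * v * g⁻¹ = v ^ a := by
    intro g hg v hv
    by_contra hne
    set w : V := ⟨g * v * g⁻¹, (inferInstance : V.Normal).conj_mem v hv g⟩ with hw
    have hw' : w ∉ Subgroup.zpowers (⟨v, hv⟩ : V) := by
      intro h
      obtain ⟨a, ha⟩ := Subgroup.mem_zpowers_iff.1 h
      exact hne ⟨a, (congrArg Subtype.val ha).symm.trans (by simp)⟩
    obtain ⟨L, hvL, hwL, hLc⟩ := exists_subgroup_mem_not_mem (A := V) (q := q)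
      (fun x => Subtype.ext (by simpa using hexp x x.2)) (U := U.subgroupOf V)
      (fun h => hU1 (by rw [← Subgroup.map_subgroupOf_eq_of_le hUV, h, Subgroup.map_bot]))
      (fun h => hU2 (by rw [← Subgroup.map_subgroupOf_eq_of_le hUV, h, ← MonoidHom.range_eq_map, Subgroup.range_subtype]))
      hw'
    have hLV : L.map V.subtype ≤ V := Subgroup.map_subtype_le L
    have hc : Nat.card (L.map V.subtype) = Nat.card U := by
      rw [Subgroup.card_map_of_injective V.subtype_injective, hLc]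
      exact Nat.card_congr (Subgroup.subgroupOfEquivOfLe hUV).toEquiv
    obtain ⟨z, hz, hzw⟩ := hall _ hLV hc g hg v ⟨⟨v, hv⟩, hvL, rfl⟩
    exact hwL ((Subtype.ext hzw : z = w) ▸ hz)
  -- by one exponent
  have huni : ∀ g ∈ N, ∃ a : ℤ, ∀ v ∈ V, g * v * g⁻¹ = v ^ a := by
    intro g hg
    obtain ⟨v0, hv0U, hv01⟩ := U.bot_or_exists_ne_one.resolve_left hU1
    have hv0 := hUV hv0U
    obtain ⟨a, ha⟩ := hline g hg v0 hv0
    have hord : orderOf v0 = q := orderOf_eq_prime (hexp v0 hv0) hv01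
    refine ⟨a, fun w hw => ?_⟩
    by_cases hwz : w ∈ Subgroup.zpowers v0
    · obtain ⟨i, rfl⟩ := Subgroup.mem_zpowers_iff.1 hwz
      rw [← conj_zpow, ha, ← zpow_mul, ← zpow_mul, mul_comm]
    obtain ⟨b, hb⟩ := hline g hg w hw
    obtain ⟨c, hc⟩ := hline g hg (v0 * w) (mul_mem hv0 hw)
    have hcomm : Commute v0 w := congrArg Subtype.val (mul_comm' (⟨v0, hv0⟩ : V) ⟨w, hw⟩)
    have h1 : v0 ^ a * w ^ b = v0 ^ c * w ^ c := by
      rw [← hcomm.mul_zpow, ← hc, ← ha, ← hb]; group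
    have h2 : v0 ^ (a - c) = w ^ (c - b) := by
      rw [zpow_sub, zpow_sub]
      calc v0 ^ a * (v0 ^ c)⁻¹ = (v0 ^ c)⁻¹ * (v0 ^ a * w ^ b) * (w ^ b)⁻¹ := by
            rw [mul_assoc, mul_inv_cancel_right, ((Commute.refl v0).zpow_zpow c a).inv_left.eq]
        _ = _ := by rw [h1]; group
    have hdisj : ∀ i : ℤ, w ^ i ∈ Subgroup.zpowers v0 → w ^ i = 1 := by
      intro i hi
      by_cases hqi : (q : ℤ) ∣ i
      · obtain ⟨j, rfl⟩ := hqi
        rw [zpow_mul, zpow_natCast, hexp w hw, one_zpow]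
      · obtain ⟨s, t, hst⟩ : IsCoprime i (q : ℤ) := by
          rw [Int.isCoprime_iff_gcd_eq_one, Int.gcd_comm]
          exact (Fact.out : q.Prime).coprime_iff_not_dvd.2 (fun h => hqi (Int.natCast_dvd.2 h))
        refine absurd ?_ hwz
        have : w = (w ^ i) ^ s := by
          calc w = w ^ (s * i + (q : ℤ) * t) := by rw [mul_comm _ t, hst, zpow_one]
            _ = (w ^ i) ^ s := by rw [zpow_add, zpow_mul w (q : ℤ), zpow_natCast, hexp w hw, one_zpow, mul_one, mul_comm, zpow_mul]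
        rw [this]
        exact zpow_mem hi s
    have h3 : w ^ (c - b) = 1 := hdisj _ (h2 ▸ zpow_mem (Subgroup.mem_zpowers v0) _)
    rw [h3, ← orderOf_dvd_iff_zpow_eq_one, hord] at h2
    have h4 : w ^ (a - c) = 1 := by
      obtain ⟨j, hj⟩ := h2
      rw [hj, zpow_mul, zpow_natCast, hexp w hw, one_zpow]
    rw [hb]
    rw [zpow_sub, mul_inv_eq_one] at h3 h4
    rw [← h3, ← h4]
  intro g hg x
  obtain ⟨a, ha⟩ := huni g hg
  rw [Subgroup.mem_centralizer_iff]
  intro v hv
  have hx : (x * g * x⁻¹) * v * (x * g * x⁻¹)⁻¹ = g * v * g⁻¹ := by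
    have h1 : x⁻¹ * v * x ∈ V := by simpa using (inferInstance : V.Normal).conj_mem v hv x⁻¹
    calc _ = x * (g * (x⁻¹ * v * x) * g⁻¹) * x⁻¹ := by group
      _ = x * (x⁻¹ * v * x) ^ a * x⁻¹ := by rw [ha _ h1]
      _ = g * v * g⁻¹ := by rw [← conj_zpow, ha v hv]; group
  have h2 : (g⁻¹ * (x * g * x⁻¹)) * v * (g⁻¹ * (x * g * x⁻¹))⁻¹ = v := by
    calc _ = g⁻¹ * ((x * g * x⁻¹) * v * (x * g * x⁻¹)⁻¹) * g := by group
      _ = v := by rw [hx]; group
  exact (mul_inv_eq_iff_eq_mul.1 h2).symm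

omit [Finite X] in
theorem eq_one_of_four {x y : X} (hx : x ^ 4 = 1) (h1 : y = x ∨ y = x⁻¹) (h2 : x * y = x ∨ x * y = x⁻¹) :
    x = 1 ∧ y = 1 := by
  have hx1 : x = 1 := by
    rcases h1 with h1 | h1 <;> rw [h1] at h2
    · rcases h2 with h | h
      · exact mul_left_cancel (h.trans (mul_one x).symm)
      · have h3 : x * x * x = 1 := by rw [h, inv_mul_cancel]
        calc x = x * x * x * x := by rw [h3, one_mul]
          _ = 1 := by rw [← hx]; simp [pow_succ]
    · rcases h2 with h | h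
      · rw [mul_inv_cancel] at h; exact h.symm
      · rw [mul_inv_cancel] at h; exact inv_eq_one.1 h.symm
  refine ⟨hx1, ?_⟩
  subst hx1
  simpa using h1

theorem card_eq_inf_mul_map (A : Subgroup X) [A.Normal] (L : Subgroup X) :
    Nat.card L = Nat.card ↥(A ⊓ L) * Nat.card (L.map (QuotientGroup.mk' A)) := by
  have h := Subgroup.relIndex_mul_relIndex ⊥ (A ⊓ L) L bot_le inf_le_right
  rw [Subgroup.relIndex_bot_left, Subgroup.relIndex_bot_left, Subgroup.inf_relIndex_right] at h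
  rw [← Subgroup.relIndex_ker, QuotientGroup.ker_mk', h]

theorem conj_of_cyclic_sylow {G : Type*} [Group G] [Finite G] {p : ℕ} [Fact p.Prime]
    (h : ∀ P : Sylow p G, IsCyclic P) (H K : Subgroup G) (hH : IsPGroup p H) (hK : IsPGroup p K)
    (hcard : Nat.card H = Nat.card K) : ∃ g : G, K = H.map (MulAut.conj g).toMonoidHom := by
  obtain ⟨P, hP⟩ := hH.exists_le_sylow
  obtain ⟨Q, hQ⟩ := hK.exists_le_sylow
  obtain ⟨g, hg⟩ := MulAction.exists_smul_eq G P Q
  refine ⟨g, eq_of_card_cyclic (h Q) hQ ?_ ?_⟩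
  · rintro _ ⟨x, hx, rfl⟩
    rw [← hg]
    exact ⟨x, hP hx, rfl⟩
  · rw [← hcard]
    exact (Subgroup.card_map_of_injective (f := (MulAut.conj g).toMonoidHom) (MulAut.conj g).injective).symm

/-- The product of the big Sylow subgroups. -/
theorem exists_big_part [Group.IsSolvable X] (hB : BCond X) :
    ∃ A : Subgroup X, A.Normal ∧ IsMulCommutative A ∧ (Nat.card A).Coprime A.index ∧
      (∀ q : ℕ, q.Prime → q ∣ Nat.card A → BigAt q X) ∧
      (∀ q : ℕ, q.Prime → ¬ q ∣ Nat.card A → SmallAt q X) := by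
  classical
  let ι := {V : Subgroup X // ∃ p, p.Prime ∧ V.Normal ∧ IsPGroup p V ∧ IsMulCommutative V ∧
    (∀ x ∈ V, x ^ p = 1) ∧ p ^ 2 ∣ Nat.card V ∧ ¬ p ∣ V.index}
  haveI hn : ∀ V : ι, (V : Subgroup X).Normal := fun V => by obtain ⟨p, -, h, -⟩ := V.2; exact h
  set A : Subgroup X := ⨆ V : ι, (V : Subgroup X) with hA
  haveI : A.Normal := Subgroup.iSup_normal _
  have hleA : ∀ V : ι, (V : Subgroup X) ≤ A := le_iSup (fun V : ι => (V : Subgroup X))
  have hab : A ≤ Subgroup.centralizer (A : Set X) := by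
    refine iSup_le fun V => ?_
    rw [Subgroup.le_centralizer_iff]
    refine iSup_le fun U => ?_
    obtain ⟨V, p, hp, hVn, hVp, hVa, -, -, hVi⟩ := V
    obtain ⟨U, r, hr, hUn, hUp, -, -, -, hUi⟩ := U
    haveI := Fact.mk hp
    haveI := Fact.mk hr
    haveI := hVn
    haveI := hVa
    haveI := hUn
    by_cases hpr : r = p
    · subst hpr
      intro x hx
      obtain ⟨m, hm⟩ := hUp ⟨x, hx⟩
      exact Subgroup.le_centralizer V (pgroup_mem_of_coprime_index hVi (m := m) (congrArg Subtype.val hm :))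
    · intro x hx
      exact Subgroup.mem_centralizer_iff.2 fun y hy =>
        (Subgroup.commute_of_normal_of_disjoint U V hUn hVn (IsPGroup.disjoint_of_ne r p hpr U V hUp hVp) x y hx hy).eq.symm
  haveI habi : IsMulCommutative A :=
    ⟨⟨fun a b => Subtype.ext (Subgroup.mem_centralizer_iff.1 (hab b.2) a a.2)⟩⟩
  set M := ∏ p ∈ (Nat.card X).primeFactors with BigAt p X, p with hM
  have hpow : ∀ a ∈ A, a ^ M = 1 := by
    intro a ha
    suffices h : a ∈ A ∧ a ^ M = 1 from h.2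
    rw [hA] at ha
    refine Subgroup.iSup_induction _ (C := fun a => a ∈ A ∧ a ^ M = 1) ha ?_ ⟨one_mem _, one_pow _⟩ ?_
    · rintro ⟨V, p, hp, h⟩ x hx
      refine ⟨hleA ⟨V, p, hp, h⟩ hx, ?_⟩
      have hmem : p ∈ (Nat.card X).primeFactors.filter (fun p => BigAt p X) := by
        refine Finset.mem_filter.2 ⟨Nat.mem_primeFactors.2 ⟨hp, ?_, Nat.card_pos.ne'⟩, V, h⟩
        exact ((dvd_pow_self p two_ne_zero).trans h.2.2.2.2.1).trans (Subgroup.card_subgroup_dvd_card V)
      obtain ⟨c, hc⟩ := Finset.dvd_prod_of_mem (fun p => p) hmem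
      rw [hM, hc, pow_mul, h.2.2.2.1 x hx, one_pow]
    · rintro x y ⟨hx, hx'⟩ ⟨hy, hy'⟩
      refine ⟨mul_mem hx hy, ?_⟩
      rw [(show Commute x y from (Subgroup.mem_centralizer_iff.1 (hab hy) x hx)).mul_pow, hx', hy', one_mul]
  have hbig : ∀ q : ℕ, q.Prime → q ∣ Nat.card A → BigAt q X := by
    intro q hq hdvd
    haveI := Fact.mk hq
    obtain ⟨⟨a, ha⟩, hao⟩ := exists_prime_orderOf_dvd_card' (G := A) q hdvd
    rw [Subgroup.orderOf_mk] at hao
    have h := orderOf_dvd_of_pow_eq_one (hpow a ha)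
    rw [hao, hM, hq.prime.dvd_finsetProd_iff] at h
    obtain ⟨r, hr, hqr⟩ := h
    obtain ⟨hr1, hr2⟩ := Finset.mem_filter.1 hr
    rwa [← (Nat.prime_dvd_prime_iff_eq hq (Nat.prime_of_mem_primeFactors hr1)).1 hqr] at hr2
  refine ⟨A, inferInstance, habi, ?_, hbig, ?_⟩
  · refine Nat.coprime_of_dvd fun q hq hqA hqi => ?_
    obtain ⟨V, hV⟩ := hbig q hq hqA
    exact hV.2.2.2.2.2 (hqi.trans (Subgroup.index_dvd_of_le (hleA ⟨V, q, hq, hV⟩)))
  · intro q hq hndvd
    refine (small_or_big _ X inferInstance hB rfl q hq).resolve_right fun ⟨V, hV⟩ => hndvd ?_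
    exact ((dvd_pow_self q two_ne_zero).trans hV.2.2.2.2.1).trans
      (Subgroup.card_dvd_of_le (hleA ⟨V, q, hq, hV⟩))

theorem quotient_small (A : Subgroup X) [A.Normal] (hco : (Nat.card A).Coprime A.index)
    (hs : ∀ q : ℕ, q.Prime → ¬ q ∣ Nat.card A → SmallAt q X) :
    ∀ q : ℕ, q.Prime → SmallAt q (X ⧸ A) := by
  intro q hq Pb x y hx hy hx1
  haveI := Fact.mk hq
  by_cases hqA : q ∣ Nat.card A
  · refine absurd ?_ hx1
    rw [← orderOf_eq_one_iff]
    refine Nat.eq_one_of_dvd_coprimes ?_ (orderOf_dvd_of_pow_eq_one hx)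
      ((Subgroup.orderOf_coe x) ▸ (Subgroup.index_eq_card A ▸ orderOf_dvd_natCard (x : X ⧸ A)))
    exact hco.coprime_dvd_left hqA
  obtain ⟨P, rfl⟩ := Sylow.mapSurjective_surjective (QuotientGroup.mk'_surjective A) q Pb
  have hinj : Function.Injective ((QuotientGroup.mk' A).subgroupMap (P : Subgroup X)) := by
    refine (injective_iff_map_eq_one _).2 fun l hl => ?_
    obtain ⟨m, hm⟩ := IsPGroup.iff_card.1 P.2
    have h1 : (l : X) ∈ A ⊓ (P : Subgroup X) :=
      Subgroup.mem_inf.2 ⟨(QuotientGroup.eq_one_iff (l : X)).1 (congrArg Subtype.val hl), l.2⟩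
    rw [Subgroup.inf_eq_bot_of_coprime (hm ▸ ((hq.coprime_iff_not_dvd.2 hqA).symm.pow_right m)),
      Subgroup.mem_bot] at h1
    exact Subtype.ext h1
  obtain ⟨x', rfl⟩ := (QuotientGroup.mk' A).subgroupMap_surjective _ x
  obtain ⟨y', rfl⟩ := (QuotientGroup.mk' A).subgroupMap_surjective _ y
  obtain ⟨j, hj⟩ := hs q hq hqA P x' y' (hinj (by rw [map_pow, map_one]; exact hx))
    (hinj (by rw [map_pow, map_one]; exact hy)) (fun h => hx1 (by rw [h]; exact map_one _))
  exact ⟨j, by rw [← hj]; exact (map_zpow _ x' j).symm⟩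

/-- Subgroups of order four of a normal quaternion section are conjugate in the normaliser. -/
theorem conj_four (hB : BCond X) (A : Subgroup X) [A.Normal] [IsMulCommutative A]
    (hbig : ∀ q : ℕ, q.Prime → q ∣ Nat.card A → BigAt q X) (h2A : (Nat.card A).Coprime 2)
    (W : Subgroup X) (hWA : W ≤ A) (P0 : Subgroup X) (hP0 : IsPGroup 2 P0)
    [(P0.map (QuotientGroup.mk' A)).Normal]
    (hu : CfsgLib.RankOneP.UniqueOrderP 2 ↥(P0.map (QuotientGroup.mk' A)))
    (h8 : Nat.card (P0.map (QuotientGroup.mk' A)) = 8)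
    (hPD : P0.map (QuotientGroup.mk' A) ≤ (Subgroup.normalizer (W : Set X)).map (QuotientGroup.mk' A))
    (ib jb : X ⧸ A) (hi : ib ∈ P0.map (QuotientGroup.mk' A)) (hj : jb ∈ P0.map (QuotientGroup.mk' A))
    (hio : orderOf ib = 4) (hjo : orderOf jb = 4) (hne : jb ∉ Subgroup.zpowers ib) :
    ∃ d ∈ Subgroup.normalizer (W : Set X), Subgroup.zpowers jb =
      (Subgroup.zpowers ib).map (MulAut.conj (QuotientGroup.mk' A d)).toMonoidHom := by
  classical
  set π := QuotientGroup.mk' A with hπdef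
  set Pb := P0.map π with hPbdef
  set D := Subgroup.normalizer (W : Set X) with hD
  have hAD : A ≤ D := by
    refine le_trans ?_ (Subgroup.centralizer_le_normalizer _)
    exact (Subgroup.le_centralizer A).trans (Subgroup.centralizer_le hWA)
  set N := Pb.comap π with hNdef
  haveI : N.Normal := (inferInstance : Pb.Normal).comap π
  have hP0N : P0 ≤ N := Subgroup.le_comap_map π P0
  have hND : N ≤ D := by
    refine (Subgroup.comap_mono hPD).trans ?_
    rw [Subgroup.comap_map_eq, QuotientGroup.ker_mk', sup_eq_left.2 hAD]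
  have hinj : ∀ a ∈ P0, π a = 1 → a = 1 := by
    intro a ha h
    obtain ⟨m, hm⟩ := IsPGroup.iff_card.1 hP0
    have h1 : a ∈ A ⊓ P0 := Subgroup.mem_inf.2 ⟨(QuotientGroup.eq_one_iff a).1 h, ha⟩
    rw [Subgroup.inf_eq_bot_of_coprime (hm ▸ h2A.pow_right m), Subgroup.mem_bot] at h1
    exact h1
  have hord : ∀ a ∈ P0, orderOf a = orderOf (π a) := by
    intro a ha
    refine Nat.dvd_antisymm ?_ (orderOf_map_dvd π a)
    refine orderOf_dvd_of_pow_eq_one (hinj _ (pow_mem ha _) ?_)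
    rw [map_pow, pow_orderOf_eq_one]
  obtain ⟨i, hiP, rfl⟩ := hi
  obtain ⟨j, hjP, rfl⟩ := hj
  have hi : π i ∈ Pb := ⟨i, hiP, rfl⟩
  have hj : π j ∈ Pb := ⟨j, hjP, rfl⟩
  have hij : orderOf (π i * π j) = 4 := by
    have h1 := Subgroup.orderOf_dvd_natCard Pb (mul_mem hi hj)
    rw [h8, show (8 : ℕ) = 2 ^ 3 by norm_num] at h1
    obtain ⟨l, hl3, hl⟩ := (Nat.dvd_prime_pow Nat.prime_two).1 h1
    rcases Nat.lt_trichotomy l 2 with h | h | h
    · exfalso
      apply hne
      obtain ⟨n, hn⟩ := hu ⟨(π i) ^ 2, pow_mem hi 2⟩ ⟨π i * π j, mul_mem hi hj⟩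
        (Subtype.ext (by
          show ((π i) ^ 2) ^ 2 = 1
          rw [← pow_mul, show 2 * 2 = orderOf (π i) by rw [hio]]
          exact pow_orderOf_eq_one _))
        (Subtype.ext (by
          show (π i * π j) ^ 2 = 1
          rw [← orderOf_dvd_iff_pow_eq_one, hl]
          exact (pow_dvd_pow 2 (show l ≤ 1 by omega)).trans (by norm_num)))
        (fun h => by
          have h' := Nat.le_of_dvd (by norm_num) (hio ▸ orderOf_dvd_of_pow_eq_one (congrArg Subtype.val h :))
          omega)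
      have hn' : ((π i) ^ 2) ^ n = π i * π j := congrArg Subtype.val hn
      rw [show π j = (π i)⁻¹ * ((π i) ^ 2) ^ n by rw [hn']; group]
      exact mul_mem (inv_mem (Subgroup.mem_zpowers _)) (zpow_mem (pow_mem (Subgroup.mem_zpowers _) 2) _)
    · rw [hl, h]; norm_num
    · exfalso
      have hc : IsCyclic Pb := isCyclic_of_orderOf_eq_card (α := Pb) ⟨π i * π j, mul_mem hi hj⟩
        (by rw [← Subgroup.orderOf_coe]; show orderOf (π i * π j) = _; rw [hl, h8, show l = 3 by omega]; norm_num)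
      refine hne ?_
      have := eq_of_card_cyclic hc (Subgroup.zpowers_le.2 hi) (Subgroup.zpowers_le.2 hj)
        (by rw [Nat.card_zpowers, Nat.card_zpowers, hio, hjo])
      exact this ▸ Subgroup.mem_zpowers _
  have hio' : orderOf i = 4 := (hord i hiP).trans hio
  have hjo' : orderOf j = 4 := (hord j hjP).trans hjo
  have hijo : orderOf (i * j) = 4 := by rw [hord _ (mul_mem hiP hjP), map_mul, hij]
  -- each primary part of `W` is normal or centralised by `i` and `j`
  set Wn := W.normalCore with hWn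
  haveI : Wn.Normal := W.normalCore_normal
  set Wc := W ⊓ Subgroup.centralizer ({i, j} : Set X) with hWc
  have hpart : ∀ q : ℕ, q.Prime → ∀ V : Subgroup X, V.Normal → IsMulCommutative V → (∀ x ∈ V, x ^ q = 1) →
      W ⊓ V ≤ Wc ⊔ Wn := by
    intro q hq V hVn hVa hVe
    haveI := Fact.mk hq
    haveI := hVn
    haveI := hVa
    by_cases hb : W ⊓ V = ⊥
    · rw [hb]; exact bot_le
    by_cases ht : W ⊓ V = V
    · rw [ht]
      exact le_sup_of_le_right (Subgroup.normal_le_normalCore.2 (inf_eq_right.1 ht))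
    have hNU : N ≤ Subgroup.normalizer ((W ⊓ V : Subgroup X) : Set X) := by
      intro g hg
      refine Subgroup.mem_normalizer_fintype ?_
      intro z hz
      exact Subgroup.mem_inf.2 ⟨(Subgroup.mem_normalizer_iff.1 (hND hg) z).1 hz.1, hVn.conj_mem z hz.2 g⟩
    have hcen := central_action hB V hVe inf_le_right hb ht N hNU
    set C := Subgroup.centralizer (V : Set X) with hC
    haveI : C.Normal := Subgroup.normal_centralizer
    let ρ := QuotientGroup.mk' C
    have hpm : ∀ z ∈ P0, orderOf z = 4 → ρ z = ρ i ∨ ρ z = (ρ i)⁻¹ := by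
      intro z hz hzo
      obtain ⟨g, hg⟩ := hB (Subgroup.zpowers i) (Subgroup.zpowers z) inferInstance inferInstance
        (by rw [Nat.card_zpowers, Nat.card_zpowers, hio', hzo])
      obtain ⟨b, hb', hbz⟩ := (hg ▸ Subgroup.mem_zpowers z : z ∈ (Subgroup.zpowers i).map (MulAut.conj g).toMonoidHom)
      obtain ⟨m, rfl⟩ := Subgroup.mem_zpowers_iff.1 hb'
      have e1 : ρ z = ρ i ^ m := by
        rw [← map_zpow, ← hbz]
        exact (QuotientGroup.eq.2 (hcen _ (zpow_mem (hP0N hiP) m) g)).symm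
      have hi4 : i ^ (4 : ℤ) = 1 := by rw [zpow_ofNat, ← hio', pow_orderOf_eq_one]
      have h4 : ρ i ^ (4 : ℤ) = 1 := by rw [← map_zpow, hi4, map_one]
      have hm4 : orderOf (i ^ m) = 4 := by
        rw [← hzo, ← hbz]; exact ((MulAut.conj g).orderOf_eq (i ^ m)).symm
      have hmod : m % 4 = 1 ∨ m % 4 = 3 := by
        by_contra hcon
        have hsq : (i ^ m) ^ 2 = 1 := by
          rw [← zpow_natCast, ← zpow_mul, show m * ((2 : ℕ) : ℤ) = 4 * (m / 2) by push_cast; omega, zpow_mul, hi4,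
            one_zpow]
        have h3 := Nat.le_of_dvd (by norm_num) (hm4 ▸ orderOf_dvd_of_pow_eq_one hsq)
        omega
      rw [e1]
      rcases hmod with h | h
      · left; rw [show m = 4 * (m / 4) + 1 by omega, zpow_add, zpow_mul, h4, one_zpow, one_mul, zpow_one]
      · right
        rw [show m = 4 * (m / 4 + 1) + (-1) by omega, zpow_add, zpow_mul, h4, one_zpow, one_mul, zpow_neg_one]
    obtain ⟨h1, h2⟩ := eq_one_of_four (x := ρ i) (y := ρ j)
      (by rw [← map_pow, ← hio', pow_orderOf_eq_one, map_one]) (hpm j hjP hjo')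
      (by rw [← map_mul]; exact hpm _ (mul_mem hiP hjP) hijo)
    have hiC : i ∈ C := (QuotientGroup.eq_one_iff i).1 h1
    have hjC : j ∈ C := (QuotientGroup.eq_one_iff j).1 h2
    refine le_sup_of_le_left fun z hz => Subgroup.mem_inf.2 ⟨hz.1, Subgroup.mem_centralizer_iff.2 fun y hy => ?_⟩
    rcases hy with rfl | hy
    · exact (Subgroup.mem_centralizer_iff.1 hiC z hz.2).symm
    · rw [Set.mem_singleton_iff] at hy
      subst hy
      exact (Subgroup.mem_centralizer_iff.1 hjC z hz.2).symm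
  have hWle : W ≤ Wc ⊔ Wn := by
    have hle : Wc ⊔ Wn ≤ W := sup_le inf_le_left W.normalCore_le
    refine (Subgroup.eq_of_le_of_card_ge hle (Nat.le_of_dvd Nat.card_pos ?_)).ge
    refine (Nat.dvd_iff_prime_pow_dvd_dvd _ _).2 fun q k hq hqk => ?_
    haveI := Fact.mk hq
    rcases Nat.eq_zero_or_pos k with rfl | hk
    · simp
    obtain ⟨V, hVn, -, hVa, hVe, -, hVi⟩ := hbig q hq
      (((dvd_pow_self q hk.ne').trans hqk).trans (Subgroup.card_dvd_of_le hWA))
    haveI := hVn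
    obtain ⟨Q, hQ⟩ := Sylow.exists_subgroup_card_pow_prime (G := W) q hqk
    have hQW : Q.map W.subtype ≤ W := Subgroup.map_subtype_le Q
    have hQc : Nat.card (Q.map W.subtype) = q ^ k := by
      rw [Subgroup.card_map_of_injective W.subtype_injective, hQ]
    have hQV : Q.map W.subtype ≤ V := fun x hx => pgroup_mem_of_coprime_index hVi (m := k)
      (by rw [← orderOf_dvd_iff_pow_eq_one, ← hQc]; exact Subgroup.orderOf_dvd_natCard _ hx)
    rw [← hQc]
    exact Subgroup.card_dvd_of_le ((le_inf hQW hQV).trans (hpart q hq V hVn hVa hVe))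
  -- abelian overgroups
  have hWcA : Wc ≤ A := inf_le_left.trans hWA
  have key : ∀ z ∈ P0, z ∈ ({i, j} : Set X) → orderOf z = 4 →
      IsMulCommutative ↥(Wc ⊔ Subgroup.zpowers z) ∧ A ⊓ (Wc ⊔ Subgroup.zpowers z) = Wc ∧
        (Wc ⊔ Subgroup.zpowers z).map π = Subgroup.zpowers (π z) ∧
        Nat.card ↥(Wc ⊔ Subgroup.zpowers z) = Nat.card Wc * 4 := by
    intro z hzP hz hzo
    have hcz : ∀ (a : Wc) (b : Subgroup.zpowers z), Commute (a : X) (b : X) := by
      intro a b
      obtain ⟨m, hm⟩ := Subgroup.mem_zpowers_iff.1 b.2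
      rw [← hm]
      exact (show Commute (a : X) z from
        (Subgroup.mem_centralizer_iff.1 (Subgroup.mem_inf.1 a.2).2 z hz).symm).zpow_right m
    let f : Wc × Subgroup.zpowers z →* X := MonoidHom.noncommCoprod Wc.subtype (Subgroup.zpowers z).subtype hcz
    have hrange : Wc ⊔ Subgroup.zpowers z ≤ f.range := by
      refine sup_le (fun a ha => ⟨(⟨a, ha⟩, 1), ?_⟩) (fun b hb => ⟨(1, ⟨b, hb⟩), ?_⟩)
      · exact (MonoidHom.noncommCoprod_apply _ _ _ _).trans (mul_one a)
      · exact (MonoidHom.noncommCoprod_apply _ _ _ _).trans (one_mul b)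
    have hle : Nat.card ↥(Wc ⊔ Subgroup.zpowers z) ≤ Nat.card Wc * 4 := by
      refine (Subgroup.card_le_of_le hrange).trans ?_
      rw [← hzo, ← Nat.card_zpowers z, ← Nat.card_prod]
      exact Nat.card_le_card_of_surjective f.rangeRestrict f.rangeRestrict_surjective
    have hmap : (Wc ⊔ Subgroup.zpowers z).map π = Subgroup.zpowers (π z) := by
      rw [Subgroup.map_sup, MonoidHom.map_zpowers,
        (Subgroup.map_eq_bot_iff Wc).2 (hWcA.trans (le_of_eq (QuotientGroup.ker_mk' A).symm)), bot_sup_eq]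
    have hcard := card_eq_inf_mul_map A (Wc ⊔ Subgroup.zpowers z)
    rw [hmap, Nat.card_zpowers, ← hord z hzP, hzo] at hcard
    have hinf : A ⊓ (Wc ⊔ Subgroup.zpowers z) = Wc :=
      (Subgroup.eq_of_le_of_card_ge (le_inf hWcA le_sup_left) (by omega)).symm
    refine ⟨⟨⟨fun a b => Subtype.ext ?_⟩⟩, hinf, hmap, by rw [hcard, hinf]⟩
    obtain ⟨⟨a1, a2⟩, ha⟩ := hrange a.2
    obtain ⟨⟨b1, b2⟩, hb⟩ := hrange b.2
    show (a : X) * b = b * a
    rw [← ha, ← hb, ← map_mul, ← map_mul]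
    congr 1
    haveI : IsMulCommutative Wc := ⟨⟨fun p q => Subtype.ext
      (congrArg Subtype.val (mul_comm' (⟨p, hWcA p.2⟩ : A) ⟨q, hWcA q.2⟩) :)⟩⟩
    exact Prod.ext (mul_comm' a1 b1) (mul_comm' a2 b2)
  obtain ⟨hiab, hiinf, himap, hicard⟩ := key i hiP (Or.inl rfl) hio'
  obtain ⟨hjab, hjinf, hjmap, hjcard⟩ := key j hjP (Or.inr rfl) hjo'
  obtain ⟨x, hx⟩ := hB _ _ hiab hjab (hicard.trans hjcard.symm)
  have hinjc : Function.Injective (MulAut.conj x).toMonoidHom := (MulAut.conj x).injective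
  have hnorm : ∀ Y : Subgroup X, Y.Normal → Y.map (MulAut.conj x).toMonoidHom = Y := fun Y hY => by
    ext y
    constructor
    · rintro ⟨z, hz, rfl⟩; exact hY.conj_mem z hz x
    · intro hy; exact ⟨x⁻¹ * y * x, by simpa using hY.conj_mem y hy x⁻¹, by simp [mul_assoc]⟩
  have hWcx : Wc.map (MulAut.conj x).toMonoidHom = Wc := by
    conv_lhs => rw [← hiinf]
    rw [Subgroup.map_inf _ _ _ hinjc, hnorm A inferInstance, ← hx, hjinf]
  have hWeq : W = Wc ⊔ Wn := le_antisymm hWle (sup_le inf_le_left W.normalCore_le)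
  have hWx : W.map (MulAut.conj x).toMonoidHom = W := by
    rw [hWeq, Subgroup.map_sup, hWcx, hnorm Wn inferInstance]
  refine ⟨x, Subgroup.mem_normalizer_fintype fun z hz => ?_, ?_⟩
  · rw [SetLike.mem_coe, ← hWx]; exact ⟨z, hz, rfl⟩
  · rw [← hjmap, ← himap, hx, map_conj_comp]

theorem normalizer_dcond (hB : BCond X) [Group.IsSolvable X] (A : Subgroup X) [A.Normal] [IsMulCommutative A]
    (hco : (Nat.card A).Coprime A.index) (hbig : ∀ q : ℕ, q.Prime → q ∣ Nat.card A → BigAt q X)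
    (hs : ∀ q : ℕ, q.Prime → ¬ q ∣ Nat.card A → SmallAt q X) (W : Subgroup X) (hWA : W ≤ A) :
    DCond ↥((Subgroup.normalizer (W : Set X)).map (QuotientGroup.mk' A)) ∧
      CycExc 2 ↥((Subgroup.normalizer (W : Set X)).map (QuotientGroup.mk' A)) := by
  classical
  set π := QuotientGroup.mk' A with hπdef
  have hπ : Function.Surjective π := QuotientGroup.mk'_surjective A
  haveI : Group.IsSolvable (X ⧸ A) := Group.isSolvable_of_surjective hπ
  have hBq : BCond (X ⧸ A) := quotient_bcond _ X inferInstance hB rfl A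
  have hsm := quotient_small A hco hs
  set D := Subgroup.normalizer (W : Set X) with hD
  set Db := D.map π with hDb
  have hcyc : ∀ q : ℕ, q.Prime → q ≠ 2 → ∀ P : Sylow q (X ⧸ A), IsCyclic P := by
    intro q hq hq2 P
    haveI := Fact.mk hq
    rcases CfsgLib.RankOneP.isCyclic_or_quaternion P.2 (hsm q hq P) with h | ⟨h, -⟩
    · exact h
    · exact absurd h hq2
  have hCE : CycExc 2 Db := fun q hq hq2 => by
    haveI := Fact.mk hq
    exact cyclic_sylow_subgroup Db (hcyc q hq hq2)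
  refine ⟨?_, hCE⟩
  intro q hq H K hH hK hcard
  haveI := Fact.mk hq
  by_cases hc : ∀ P : Sylow q Db, IsCyclic P
  · exact conj_of_cyclic_sylow hc H K hH hK hcard
  obtain ⟨Q, hQ⟩ := not_forall.1 hc
  have hq2 : q = 2 := by_contra fun h => hQ (hCE q hq h Q)
  subst hq2
  obtain ⟨Pb, hQPb⟩ := (Q.2.map Db.subtype).exists_le_sylow
  have hPbc : ¬ IsCyclic (Pb : Subgroup (X ⧸ A)) := fun h => hQ (by
    haveI := h
    haveI := isCyclic_of_injective (Subgroup.inclusion hQPb) (Subgroup.inclusion_injective hQPb)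
    exact ((Q : Subgroup Db).equivMapOfInjective Db.subtype Db.subtype_injective).isCyclic.2 inferInstance)
  obtain ⟨h8, hPn, hprop⟩ := quaternion_normal hBq hsm Pb hPbc
  have hQeq : (Q : Subgroup Db).map Db.subtype = Pb := by
    by_contra hne
    exact hQ (((Q : Subgroup Db).equivMapOfInjective Db.subtype Db.subtype_injective).isCyclic.2
      (hprop _ hQPb hne))
  have hPD : (Pb : Subgroup (X ⧸ A)) ≤ Db := hQeq ▸ Subgroup.map_subtype_le _
  haveI := hPn
  have hallP : ∀ Y : Subgroup Db, IsPGroup 2 Y → Y.map Db.subtype ≤ Pb := by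
    intro Y hY
    obtain ⟨R, hR⟩ := (hY.map Db.subtype).exists_le_sylow
    haveI := Sylow.unique_of_normal Pb hPn
    rwa [Subsingleton.elim R Pb] at hR
  set H' := H.map Db.subtype with hH'
  set K' := K.map Db.subtype with hK'
  have hinj := Db.subtype_injective
  have hc' : Nat.card H' = Nat.card K' := by
    rw [hH', hK', Subgroup.card_map_of_injective hinj, Subgroup.card_map_of_injective hinj, hcard]
  suffices h : ∃ d : Db, K' = H'.map (MulAut.conj (d : X ⧸ A)).toMonoidHom by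
    obtain ⟨d, hd⟩ := h
    refine ⟨d, Subgroup.map_injective hinj ?_⟩
    rw [map_conj_comp]
    exact hd
  have hHP := hallP H hH
  have hKP := hallP K hK
  have h1 : Nat.card H' ∣ 2 ^ 3 := by
    rw [show (2 : ℕ) ^ 3 = 8 by norm_num, ← h8]; exact Subgroup.card_dvd_of_le hHP
  obtain ⟨m, hm3, hm⟩ := (Nat.dvd_prime_pow Nat.prime_two).1 h1
  have hsame : H' = K' → ∃ d : Db, K' = H'.map (MulAut.conj (d : X ⧸ A)).toMonoidHom := by
    intro e
    refine ⟨1, ?_⟩
    rw [e]; ext y; simp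
  rcases (by omega : m = 0 ∨ m = 1 ∨ m = 2 ∨ m = 3) with h | h | h | h <;> subst h
  · refine hsame ?_
    rw [pow_zero] at hm
    rw [Subgroup.eq_bot_of_card_eq H' hm, Subgroup.eq_bot_of_card_eq K' (hc'.symm.trans hm)]
  · refine hsame ?_
    rw [pow_one] at hm
    obtain ⟨⟨x, hx⟩, hxo⟩ := exists_prime_orderOf_dvd_card' (G := H') 2 (by rw [hm])
    rw [Subgroup.orderOf_mk] at hxo
    obtain ⟨⟨y, hy⟩, hyo⟩ := exists_prime_orderOf_dvd_card' (G := K') 2 (by rw [← hc', hm])
    rw [Subgroup.orderOf_mk] at hyo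
    have hxy : y ∈ Subgroup.zpowers x := (hsm 2 hq).mem_zpowers Pb.2 (hHP hx) (hKP hy)
      (by rw [← hxo]; exact pow_orderOf_eq_one x) (by rw [← hyo]; exact pow_orderOf_eq_one y)
      (fun e => by rw [e, orderOf_one] at hxo; omega)
    have ex : Subgroup.zpowers x = H' := Subgroup.eq_of_le_of_card_ge (Subgroup.zpowers_le.2 hx)
      (by rw [Nat.card_zpowers, hxo, hm])
    have ey : Subgroup.zpowers y = K' := Subgroup.eq_of_le_of_card_ge (Subgroup.zpowers_le.2 hy)
      (by rw [Nat.card_zpowers, hyo, ← hc', hm])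
    exact (Subgroup.eq_of_le_of_card_ge (ey ▸ (Subgroup.zpowers_le.2 hxy).trans ex.le) hc'.le).symm
  · have h4 : ∀ Y : Subgroup (X ⧸ A), Y ≤ Pb → Nat.card Y = 4 → ∃ y, orderOf y = 4 ∧ Subgroup.zpowers y = Y := by
      intro Y hY hY4
      have hne : Y ≠ Pb := fun e => by rw [e, h8] at hY4; omega
      obtain ⟨y, hy⟩ := (Subgroup.isCyclic_iff_exists_zpowers_eq_top Y).1 (hprop Y hY hne)
      exact ⟨y, by rw [← Nat.card_zpowers, hy, hY4], hy⟩
    obtain ⟨ib, hio, hiH⟩ := h4 H' hHP (by rw [hm]; norm_num)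
    obtain ⟨jb, hjo, hjK⟩ := h4 K' hKP (by rw [← hc', hm]; norm_num)
    by_cases he : jb ∈ Subgroup.zpowers ib
    · refine hsame (Subgroup.eq_of_le_of_card_ge ?_ hc'.le).symm
      rw [← hjK, ← hiH]; exact Subgroup.zpowers_le.2 he
    have h2A : (Nat.card A).Coprime 2 := by
      refine (Nat.prime_two.coprime_iff_not_dvd.2 fun h => ?_).symm
      have h2 : 2 ∣ A.index := by
        rw [Subgroup.index_eq_card]
        exact ((by rw [h8]; norm_num : 2 ∣ Nat.card (Pb : Subgroup (X ⧸ A)))).trans (Subgroup.card_subgroup_dvd_card _)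
      exact Nat.not_coprime_of_dvd_of_dvd one_lt_two h h2 hco
    obtain ⟨P0, hP0⟩ := Sylow.mapSurjective_surjective hπ 2 Pb
    have hP0m : (P0 : Subgroup X).map π = Pb := congrArg (fun P : Sylow 2 (X ⧸ A) => (P : Subgroup (X ⧸ A))) hP0
    haveI : ((P0 : Subgroup X).map (QuotientGroup.mk' A)).Normal := by rw [hP0m]; exact hPn
    obtain ⟨d, hd, hdc⟩ := conj_four hB A hbig h2A W hWA P0 P0.2 (by rw [hP0m]; exact hsm 2 hq Pb)
      (by rw [hP0m]; exact h8) (by rw [hP0m]; exact hPD) ib jb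
      (by rw [hP0m]; exact hHP (hiH.le (Subgroup.mem_zpowers ib))) (by rw [hP0m]; exact hKP (hjK.le (Subgroup.mem_zpowers jb)))
      hio hjo he
    exact ⟨⟨π d, d, hd, rfl⟩, by rw [← hiH, ← hjK]; exact hdc⟩
  · refine hsame ?_
    have e1 : H' = Pb := Subgroup.eq_of_le_of_card_ge hHP (by rw [h8, hm]; norm_num)
    have e2 : K' = Pb := Subgroup.eq_of_le_of_card_ge hKP (by rw [h8, ← hc', hm]; norm_num)
    rw [e1, e2]

/-- All subgroups of equal order are conjugate. -/
theorem main [Group.IsSolvable X] (hB : BCond X) (H K : Subgroup X) (hcard : Nat.card H = Nat.card K) :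
    ∃ g : X, K = H.map (MulAut.conj g).toMonoidHom := by
  classical
  obtain ⟨V, hVn, hab, hidx, hbig, hs⟩ := exists_big_part hB
  haveI := hVn
  haveI := hab
  let π := QuotientGroup.mk' V
  have hnormV : ∀ L : Subgroup X, L ≤ Subgroup.normalizer (V : Set X) := fun L => by
    rw [Subgroup.normalizer_eq_top_iff.2 hVn]; exact le_top
  have hfix : ∀ L M : Subgroup X, (Nat.card V).Coprime (Nat.card L) → (Nat.card V).Coprime (Nat.card M) →
      L.map π = M.map π → ∃ a ∈ V, M = L.map (MulAut.conj a).toMonoidHom := by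
    intro L M hL hM h
    have hsup : V ⊔ L = V ⊔ M := by
      have h1 := congrArg (Subgroup.comap π) h
      rwa [Subgroup.comap_map_eq, Subgroup.comap_map_eq, QuotientGroup.ker_mk', sup_comm, sup_comm M] at h1
    obtain ⟨a, ha, he⟩ := CfsgLib.Hall.exists_conj_eq_of_sup_eq V L M (hnormV L) (hnormV M) hL hM hsup
    exact ⟨a, ha, he.symm⟩
  have hcardmap : ∀ L : Subgroup X, (Nat.card V).Coprime (Nat.card L) → Nat.card (L.map π) = Nat.card L := by
    intro L hL
    rw [card_eq_inf_mul_map V L, Subgroup.inf_eq_bot_of_coprime hL, Subgroup.card_bot, one_mul]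
  have hsplit : ∀ L : Subgroup X, ∃ M : Subgroup X, M ≤ L ∧ (V ⊓ L) ⊔ M = L ∧
      (Nat.card V).Coprime (Nat.card M) ∧ Nat.card ↥(V ⊓ L) * Nat.card M = Nat.card L := by
    intro L
    have hcW : Nat.card (V.subgroupOf L) = Nat.card ↥(V ⊓ L) := by
      rw [← Subgroup.inf_subgroupOf_right V L]
      exact Nat.card_congr (Subgroup.subgroupOfEquivOfLe inf_le_right).toEquiv
    have hdiv : (V.subgroupOf L).index ∣ V.index := Subgroup.relIndex_dvd_index_of_normal V L
    obtain ⟨M', hM'⟩ := Subgroup.exists_right_complement'_of_coprime (N := V.subgroupOf L) (by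
      rw [hcW]
      exact (hidx.coprime_dvd_left (Subgroup.card_dvd_of_le inf_le_left)).coprime_dvd_right hdiv)
    refine ⟨M'.map L.subtype, Subgroup.map_subtype_le _, ?_, ?_, ?_⟩
    · have h1 := congrArg (Subgroup.map L.subtype) hM'.sup_eq_top
      rwa [Subgroup.map_sup, Subgroup.subgroupOf_map_subtype, ← MonoidHom.range_eq_map,
        Subgroup.range_subtype] at h1
    · rw [Subgroup.card_map_of_injective L.subtype_injective, ← hM'.symm.index_eq_card]
      exact hidx.coprime_dvd_right hdiv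
    · rw [Subgroup.card_map_of_injective L.subtype_injective, ← hcW]
      exact hM'.card_mul
  obtain ⟨L, hLH, hHs, hLco, hLc⟩ := hsplit H
  obtain ⟨M, hMK, hKs, hMco, hMc⟩ := hsplit K
  set W := V ⊓ H with hW
  set W' := V ⊓ K with hW'
  have hWW : Nat.card W = Nat.card W' := by
    have h1 := hLc.trans (hcard.trans hMc.symm)
    refine Nat.dvd_antisymm ?_ ?_
    · refine (Nat.Coprime.dvd_of_dvd_mul_right (n := Nat.card M) ?_ ⟨Nat.card L, h1.symm⟩)
      exact hMco.coprime_dvd_left (Subgroup.card_dvd_of_le inf_le_left)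
    · refine (Nat.Coprime.dvd_of_dvd_mul_right (n := Nat.card L) ?_ ⟨Nat.card M, h1⟩)
      exact hLco.coprime_dvd_left (Subgroup.card_dvd_of_le inf_le_left)
  have hLM : Nat.card L = Nat.card M := by
    have h1 := hLc.trans (hcard.trans hMc.symm)
    rw [hWW] at h1
    exact Nat.eq_of_mul_eq_mul_left Nat.card_pos h1
  have hYab : ∀ Y : Subgroup X, Y ≤ V → IsMulCommutative Y := fun Y hY =>
    ⟨⟨fun a b => Subtype.ext (congrArg Subtype.val (mul_comm' (⟨a, hY a.2⟩ : V) ⟨b, hY b.2⟩) :)⟩⟩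
  obtain ⟨g, hg⟩ := hB W W' (hYab W inf_le_left) (hYab W' inf_le_left) hWW
  set L1 := L.map (MulAut.conj g).toMonoidHom with hL1
  have hL1c : Nat.card L1 = Nat.card L :=
    Subgroup.card_map_of_injective (f := (MulAut.conj g).toMonoidHom) (MulAut.conj g).injective
  set D := Subgroup.normalizer (W' : Set X) with hD'
  have hVD : V ≤ D := by
    refine le_trans ?_ (Subgroup.centralizer_le_normalizer _)
    exact (Subgroup.le_centralizer V).trans (Subgroup.centralizer_le
      (show (W' : Set X) ⊆ (V : Set X) from fun x hx => hx.1))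
  have hnW : ∀ Y : Subgroup X, Y ≤ Subgroup.normalizer ((V ⊓ Y : Subgroup X) : Set X) := by
    intro Y y hy
    refine Subgroup.mem_normalizer_fintype ?_
    intro z hz
    exact Subgroup.mem_inf.2 ⟨hVn.conj_mem z hz.1 y, mul_mem (mul_mem hy hz.2) (inv_mem hy)⟩
  have hMD : M ≤ D := hMK.trans (hnW K)
  have hL1D : L1 ≤ D := by
    rintro _ ⟨l, hl, rfl⟩
    refine Subgroup.mem_normalizer_fintype ?_
    intro z hz
    rw [hg] at hz ⊢
    obtain ⟨w, hw, rfl⟩ := hz
    refine ⟨l * w * l⁻¹, (Subgroup.mem_normalizer_iff.1 (hnW H (hLH hl)) w).1 hw, ?_⟩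
    simp [mul_assoc]
  obtain ⟨hDC, hCE⟩ := normalizer_dcond hB V hidx hbig hs W' inf_le_left
  set Db := D.map π with hDb
  haveI : Group.IsSolvable (X ⧸ V) := Group.isSolvable_of_surjective (QuotientGroup.mk'_surjective V)
  have hco1 : (Nat.card V).Coprime (Nat.card L1) := by rw [hL1c]; exact hLco
  obtain ⟨⟨db, hdb⟩, hconj⟩ := conj_all (Nat.card Db) Db inferInstance 2 hDC hCE rfl
    ((L1.map π).subgroupOf Db) ((M.map π).subgroupOf Db) (by
    rw [Nat.card_congr (Subgroup.subgroupOfEquivOfLe (Subgroup.map_mono hL1D)).toEquiv,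
      Nat.card_congr (Subgroup.subgroupOfEquivOfLe (Subgroup.map_mono hMD)).toEquiv,
      hcardmap L1 hco1, hcardmap M hMco, hL1c, hLM])
  obtain ⟨d, hdD, rfl⟩ := hdb
  have h2 : M.map π = (L1.map (MulAut.conj d).toMonoidHom).map π := by
    rw [BGroups.map_mk_conj]
    have h1 := congrArg (Subgroup.map Db.subtype) hconj
    rw [Subgroup.map_subgroupOf_eq_of_le (Subgroup.map_mono hMD), Subgroup.map_map] at h1
    rw [h1]
    conv_rhs => rw [← Subgroup.map_subgroupOf_eq_of_le (Subgroup.map_mono (f := π) hL1D), Subgroup.map_map]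
    rfl
  obtain ⟨a, haV, ha⟩ := hfix (L1.map (MulAut.conj d).toMonoidHom) M
    (by rw [Subgroup.card_map_of_injective (f := (MulAut.conj d).toMonoidHom) (MulAut.conj d).injective, hL1c]; exact hLco)
    hMco h2.symm
  refine ⟨a * d * g, ?_⟩
  have hadD : a * d ∈ D := mul_mem (hVD haV) hdD
  have hW'fix : W'.map (MulAut.conj (a * d)).toMonoidHom = W' := by
    ext x
    constructor
    · rintro ⟨y, hy, rfl⟩
      exact (Subgroup.mem_normalizer_iff.1 hadD y).1 hy
    · intro hx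
      exact ⟨(a * d)⁻¹ * x * (a * d), (Subgroup.mem_normalizer_iff''.1 hadD x).1 hx, by simp [mul_assoc]⟩
  have hcomp : ∀ Y : Subgroup X, ∀ s t : X, Y.map (MulAut.conj (s * t)).toMonoidHom =
      (Y.map (MulAut.conj t).toMonoidHom).map (MulAut.conj s).toMonoidHom := by
    intro Y s t
    rw [Subgroup.map_map]
    congr 1
    ext x
    simp [mul_assoc]
  rw [← hKs, ← hHs, Subgroup.map_sup, hcomp W (a * d) g, hcomp L (a * d) g, ← hg, hW'fix, ← hL1,
    hcomp L1 a d, ← ha]

end CfsgLib.BGroupsAll
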