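import Cfsg.Agent.BGroupsAll.Sylows

/-!
A quaternion Sylow subgroup is normal when every prime is small.
-/

set_option autoImplicit false
set_option linter.style.haveILetI false

namespace CfsgLib.BGroupsAll

open CfsgLib.BGroups
open scoped commutatorElement

universe u

variable {X : Type u} [Group X] [Finite X]

theorem commutator_le_centralizer (C : Subgroup X) [C.Normal] (hC : IsCyclic C) :
    commutator X ≤ Subgroup.centralizer (C : Set X) := by
  obtain ⟨⟨c, hc⟩, hgen⟩ := hC.exists_zpow_surjective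
  have key : ∀ g : X, ∃ a : ℤ, g * c * g⁻¹ = c ^ a := fun g => by
    obtain ⟨a, ha⟩ := hgen ⟨g * c * g⁻¹, (inferInstance : C.Normal).conj_mem c hc g⟩
    exact ⟨a, (congrArg Subtype.val ha).symm.trans (by simp)⟩
  rw [_root_.commutator_def, Subgroup.commutator_le]
  intro g _ h _
  obtain ⟨a, ha⟩ := key g
  obtain ⟨b, hb⟩ := key h
  have hswap : (g * h) * c * (g * h)⁻¹ = (h * g) * c * (h * g)⁻¹ := by
    calc (g * h) * c * (g * h)⁻¹ = g * (h * c * h⁻¹) * g⁻¹ := by group
      _ = (g * c * g⁻¹) ^ b := by rw [hb, conj_zpow]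
      _ = c ^ (a * b) := by rw [ha, zpow_mul]
      _ = (h * c * h⁻¹) ^ a := by rw [hb, ← zpow_mul, mul_comm]
      _ = h * (g * c * g⁻¹) * h⁻¹ := by rw [ha, conj_zpow]
      _ = _ := by group
  have hcc : Commute ⁅g, h⁆ c := by
    refine mul_inv_eq_iff_eq_mul.1 ?_
    calc ⁅g, h⁆ * c * ⁅g, h⁆⁻¹ = (g * h) * ((h * g)⁻¹ * c * (h * g)) * (g * h)⁻¹ := by
          rw [commutatorElement_def]; group
      _ = c := by
        obtain ⟨d, hd⟩ := key (h * g)⁻¹
        rw [inv_inv] at hd
        rw [hd, ← conj_zpow, hswap, conj_zpow, ← hd]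
        group
  rw [Subgroup.mem_centralizer_iff]
  intro y hy
  obtain ⟨i, hi⟩ := hgen ⟨y, hy⟩
  have hy' : c ^ i = y := by simpa using congrArg Subtype.val hi
  rw [← hy']
  exact (hcc.zpow_right i).eq.symm

theorem ab_four {A : Type*} [CommGroup A] {x y : A} (hx : x ^ 4 = 1) (h1 : y = x ∨ y = x⁻¹)
    (h2 : x * y = x ∨ x * y = x⁻¹) : x = 1 ∧ y = 1 := by
  have hx1 : x = 1 := by
    rcases h1 with h1 | h1 <;> rw [h1] at h2
    · rcases h2 with h | h
      · exact mul_left_cancel (h.trans (mul_one x).symm)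
      · have h3 : x * x * x = 1 := by rw [h, inv_mul_cancel]
        calc x = x * x * x * x := by rw [h3, one_mul]
          _ = 1 := by rw [← hx]; simp [pow_succ]
    · rcases h2 with h | h
      · rw [mul_inv_cancel] at h; exact h.symm
      · rw [mul_inv_cancel] at h; exact inv_eq_one.1 h.symm
  refine ⟨hx1, ?_⟩
  subst hx1
  simpa using h1

/-- A non-cyclic Sylow 2-subgroup is a normal quaternion group of order eight. -/
theorem quaternion_normal [Group.IsSolvable X] (hB : BCond X) (hall : ∀ p : ℕ, p.Prime → SmallAt p X)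
    (P : Sylow 2 X) (hP : ¬ IsCyclic (P : Subgroup X)) :
    Nat.card (P : Subgroup X) = 8 ∧ (P : Subgroup X).Normal ∧
      (∀ Q : Subgroup X, Q ≤ P → Q ≠ P → IsCyclic Q) := by
  classical
  have h2 := Nat.prime_two
  haveI := Fact.mk h2
  have hS := hall 2 h2
  rcases CfsgLib.RankOneP.isCyclic_or_quaternion P.2 (hS P) with h | ⟨-, k, hk, ⟨e⟩⟩
  · exact absurd h hP
  haveI : NeZero (2 ^ k) := ⟨by positivity⟩
  have hcardP : Nat.card (P : Subgroup X) = 4 * 2 ^ k := by
    rw [Nat.card_congr e.toEquiv, Nat.card_eq_fintype_card, QuaternionGroup.card]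
  -- the order is eight
  have h8 : Nat.card (P : Subgroup X) = 8 := by
    set N := Cfsg.pPrimeCore 2 X with hN
    haveI := CfsgLib.PCore.pPrimeCore_characteristic 2 X
    let π := QuotientGroup.mk' N
    have hπ : Function.Surjective π := QuotientGroup.mk'_surjective N
    have hinjQ : ∀ Q : Subgroup X, IsPGroup 2 Q → ∀ a ∈ Q, ∀ b ∈ Q, π a = π b → a = b := by
      intro Q hQ a ha b hb h
      obtain ⟨m, hm⟩ := IsPGroup.iff_card.1 hQ
      have h1 : a⁻¹ * b ∈ N ⊓ Q := Subgroup.mem_inf.2 ⟨QuotientGroup.eq.1 h, mul_mem (inv_mem ha) hb⟩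
      rw [Subgroup.inf_eq_bot_of_coprime (hm ▸ (CfsgLib.PCore.pPrimeCore_coprime 2 X).pow_right m),
        Subgroup.mem_bot] at h1
      exact inv_mul_eq_one.1 h1
    haveI : Group.IsSolvable (X ⧸ N) := Group.isSolvable_of_surjective hπ
    have hBQ : BCond (X ⧸ N) := quotient_bcond _ X inferInstance hB rfl N
    have hQinj : Function.Injective (π.subgroupMap (P : Subgroup X)) := fun a b h =>
      Subtype.ext (hinjQ _ P.2 _ a.2 _ b.2 (congrArg Subtype.val h))
    haveI : Nontrivial (X ⧸ N) := by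
      refine nontrivial_of_ne (π ((e.symm (QuaternionGroup.xa 0) : ↥(P : Subgroup X)) : X)) 1 fun h => ?_
      have h1 := hinjQ _ P.2 _ (e.symm (QuaternionGroup.xa 0)).2 1 (one_mem _) (h.trans (map_one π).symm)
      have h3 := congrArg orderOf h1
      rw [orderOf_one, Subgroup.orderOf_coe, e.symm.orderOf_eq, QuaternionGroup.orderOf_xa] at h3
      omega
    obtain ⟨W, hW, -⟩ := CfsgLib.Hall.exists_isMinNormal_le (⊤ : Subgroup (X ⧸ N)) top_ne_bot
    haveI := hW.1
    obtain ⟨r, hr, hWab, hWp, hWe⟩ := hW.elementaryAbelian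
    haveI := Fact.mk hr
    obtain ⟨w, hw, hw1⟩ := W.bot_or_exists_ne_one.resolve_left hW.2.1
    have hr2 : r = 2 := by
      by_contra hne
      obtain ⟨m, hm⟩ := IsPGroup.iff_card.1 hWp
      have hco : (Nat.card W).Coprime 2 := by rw [hm]; exact ((Nat.coprime_primes hr h2).2 hne).pow_left m
      exact hW.2.1 (le_bot_iff.1 (CfsgLib.PCore.pPrimeCore_quotient (p := 2) (G := X) ▸
        CfsgLib.PCore.le_pPrimeCore hW.1 hco))
    subst hr2
    let Pb : Sylow 2 (X ⧸ N) := P.mapSurjective hπ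
    have hSb : SmallAt 2 (X ⧸ N) := by
      intro Q x y hx hy hx1
      have hu : CfsgLib.RankOneP.UniqueOrderP 2 ↥((P : Subgroup X).map π) := by
        intro a b ha hb ha1
        obtain ⟨a', rfl⟩ := π.subgroupMap_surjective _ a
        obtain ⟨b', rfl⟩ := π.subgroupMap_surjective _ b
        obtain ⟨j, hj⟩ := hS P a' b' (hQinj (by rw [map_pow, ha, map_one])) (hQinj (by rw [map_pow, hb, map_one]))
          (fun h => ha1 (by rw [h, map_one]))
        exact ⟨j, by rw [← hj]; exact (map_zpow (π.subgroupMap _) a' j).symm⟩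
      have he := Q.equiv Pb
      obtain ⟨j, hj⟩ := hu (he x) (he y) ((map_pow he x 2).symm.trans ((congrArg he hx).trans (map_one he))) ((map_pow he y 2).symm.trans ((congrArg he hy).trans (map_one he)))
        (fun h => hx1 (he.injective (h.trans (map_one he).symm)))
      exact ⟨j, he.injective (by rw [← hj]; exact map_zpow he x j)⟩
    have hWc : Nat.card W ≤ 2 := hSb.card_le hWp hWe
    have hWz : W = Subgroup.zpowers w := (Subgroup.eq_of_le_of_card_ge (Subgroup.zpowers_le.2 hw)
      (by rw [Nat.card_zpowers, orderOf_eq_prime (hWe w hw) hw1]; exact hWc)).symm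
    have huG : CfsgLib.RankOneP.UniqueOrderP 2 (X ⧸ N) := by
      intro x y hx hy hx1
      have hxW : x ∈ W := mem_of_pow_eq_one hBQ hw (orderOf_eq_prime (hWe w hw) hw1) hx
      have hyW : y ∈ W := mem_of_pow_eq_one hBQ hw (orderOf_eq_prime (hWe w hw) hw1) hy
      have e2 : Subgroup.zpowers x = W := Subgroup.eq_of_le_of_card_ge (Subgroup.zpowers_le.2 hxW)
        (by rw [Nat.card_zpowers, orderOf_eq_prime hx hx1]; exact hWc)
      exact e2.ge hyW
    have hnc : ¬ IsCyclic ↥((P : Subgroup X).map π) := fun h =>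
      hP (isCyclic_of_injective (π.subgroupMap (P : Subgroup X)) hQinj)
    obtain ⟨-, h⟩ := CfsgLib.BGroups.sylow_card_eight hBQ huG (P.2.map π) hnc
    have := h Pb
    rw [← this]
    exact Nat.card_congr (Equiv.ofBijective _ ⟨hQinj, π.subgroupMap_surjective _⟩)
  have hk1 : k = 1 := by
    refine Nat.pow_right_injective (le_refl 2) ?_
    show 2 ^ k = 2 ^ 1
    rw [h8] at hcardP
    omega
  subst hk1
  have hprop : ∀ Q : Subgroup X, Q ≤ P → Q ≠ P → IsCyclic Q := by
    intro Q hQ hne
    have hQp : IsPGroup 2 Q := P.2.to_le hQ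
    rcases CfsgLib.RankOneP.isCyclic_or_quaternion hQp (fun x y hx hy hx1 => by
      obtain ⟨j, hj⟩ := Subgroup.mem_zpowers_iff.1 (hS.mem_zpowers hQp x.2 y.2 (congrArg Subtype.val hx)
        (congrArg Subtype.val hy) (fun h => hx1 (Subtype.ext h)))
      exact ⟨j, Subtype.ext hj⟩) with h | ⟨-, m, hm, ⟨e'⟩⟩
    · exact h
    · exfalso
      haveI : NeZero (2 ^ m) := ⟨by positivity⟩
      refine hne (Subgroup.eq_of_le_of_card_ge hQ ?_)
      rw [Nat.card_congr e'.toEquiv, Nat.card_eq_fintype_card (α := QuaternionGroup (2 ^ m)), QuaternionGroup.card, h8]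
      have : 2 ^ 1 ≤ 2 ^ m := Nat.pow_le_pow_right (by norm_num) hm
      omega
  refine ⟨h8, ?_, hprop⟩
  -- generators
  set i : X := ((e.symm (QuaternionGroup.a 1) : ↥(P : Subgroup X)) : X) with hidef
  set j : X := ((e.symm (QuaternionGroup.xa 0) : ↥(P : Subgroup X)) : X) with hjdef
  have hio : orderOf i = 4 := by
    rw [hidef, Subgroup.orderOf_coe, e.symm.orderOf_eq, QuaternionGroup.orderOf_a_one]; norm_num
  have hjo : orderOf j = 4 := by
    rw [hjdef, Subgroup.orderOf_coe, e.symm.orderOf_eq, QuaternionGroup.orderOf_xa]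
  have hijo : orderOf (i * j) = 4 := by
    rw [hidef, hjdef, ← Subgroup.coe_mul, Subgroup.orderOf_coe, ← map_mul, e.symm.orderOf_eq,
      QuaternionGroup.a_mul_xa, QuaternionGroup.orderOf_xa]
  have hconj : ∀ z : X, orderOf z = 4 →
      Abelianization.of z = Abelianization.of i ∨ Abelianization.of z = (Abelianization.of i)⁻¹ := by
    intro z hz
    obtain ⟨g, hg⟩ := hB (Subgroup.zpowers i) (Subgroup.zpowers z) inferInstance inferInstance
      (by rw [Nat.card_zpowers, Nat.card_zpowers, hio, hz])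
    obtain ⟨b, hb, hbz⟩ := (hg ▸ Subgroup.mem_zpowers z : z ∈ (Subgroup.zpowers i).map (MulAut.conj g).toMonoidHom)
    obtain ⟨m, rfl⟩ := Subgroup.mem_zpowers_iff.1 hb
    have e1 : Abelianization.of z = Abelianization.of i ^ m := by
      rw [← hbz, show (MulAut.conj g).toMonoidHom (i ^ m) = g * i ^ m * g⁻¹ from rfl, map_mul, map_mul, map_inv,
        map_zpow, mul_comm (Abelianization.of g), mul_inv_cancel_right]
    have hord : orderOf (i ^ m) = 4 := by
      rw [← hz, ← hbz]; exact ((MulAut.conj g).orderOf_eq (i ^ m)).symm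
    have h4 : Abelianization.of i ^ (4 : ℤ) = 1 := by
      rw [zpow_ofNat, ← map_pow, ← hio, pow_orderOf_eq_one, map_one]
    have hi4 : i ^ (4 : ℤ) = 1 := by rw [zpow_ofNat, ← hio, pow_orderOf_eq_one]
    have hmod : m % 4 = 1 ∨ m % 4 = 3 := by
      by_contra hcon
      have hsq : (i ^ m) ^ 2 = 1 := by
        rw [← zpow_natCast, ← zpow_mul, show m * ((2 : ℕ) : ℤ) = 4 * (m / 2) by push_cast; omega, zpow_mul, hi4,
          one_zpow]
      have h3 := Nat.le_of_dvd (by norm_num) (hord ▸ orderOf_dvd_of_pow_eq_one hsq)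
      omega
    rw [e1]
    rcases hmod with h | h
    · left; rw [show m = 4 * (m / 4) + 1 by omega, zpow_add, zpow_mul, h4, one_zpow, one_mul, zpow_one]
    · right
      rw [show m = 4 * (m / 4 + 1) + (-1) by omega, zpow_add, zpow_mul, h4, one_zpow, one_mul, zpow_neg_one]
  obtain ⟨hi0, hj0⟩ := ab_four (x := Abelianization.of i) (y := Abelianization.of j)
    (by rw [← map_pow, ← hio, pow_orderOf_eq_one, map_one]) (hconj j hjo) (by rw [← map_mul]; exact hconj _ hijo)
  have hPcom : (P : Subgroup X) ≤ commutator X := by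
    intro x hx
    have hmem : ∀ z : X, Abelianization.of z = 1 → z ∈ commutator X := fun z hz => by
      rw [← Abelianization.ker_of X]; exact hz
    have hx' : x = ((e.symm (e ⟨x, hx⟩) : ↥(P : Subgroup X)) : X) := by rw [e.symm_apply_apply]
    have hapow : ∀ n : ZMod (2 * 2 ^ 1), ((e.symm (QuaternionGroup.a n) : ↥(P : Subgroup X)) : X) ∈ commutator X := by
      intro n
      rw [show QuaternionGroup.a n = (QuaternionGroup.a 1 : QuaternionGroup (2 ^ 1)) ^ n.val by
        rw [QuaternionGroup.a_one_pow, ZMod.natCast_zmod_val], map_pow, SubmonoidClass.coe_pow]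
      exact pow_mem (hmem i hi0) _
    match he : e ⟨x, hx⟩ with
    | .a n => rw [hx', he]; exact hapow n
    | .xa n =>
      have e2 : QuaternionGroup.xa n = (QuaternionGroup.xa 0 : QuaternionGroup (2 ^ 1)) * QuaternionGroup.a n := by
        rw [QuaternionGroup.xa_mul_a, zero_add]
      rw [hx', he, e2, map_mul, Subgroup.coe_mul]
      exact mul_mem (hmem j hj0) (hapow n)
  haveI := CfsgLib.PCore.pCore_characteristic 2 X
  have hO2n : (Cfsg.pCore 2 X).Normal := inferInstance
  have hO2 : Cfsg.pCore 2 X ≤ P := (CfsgLib.PCore.isPGroup_pCore 2 X).le_sylow_of_normal P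
  by_cases hO : Cfsg.pCore 2 X = P
  · exact hO ▸ hO2n
  have hF : (P : Subgroup X) ≤ Subgroup.centralizer (Cfsg.fittingSubgroup X : Set X) := by
    rw [Subgroup.le_centralizer_iff, CfsgLib.Components.fittingSubgroup_eq_iSup]
    refine iSup_le fun q => ?_
    obtain ⟨q, hq⟩ := q
    have hqp := Nat.prime_of_mem_primeFactors hq
    haveI := Fact.mk hqp
    haveI := CfsgLib.PCore.pCore_characteristic q X
    rw [Subgroup.le_centralizer_iff]
    refine hPcom.trans (commutator_le_centralizer _ ?_)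
    by_cases hq2 : q = 2
    · subst hq2; exact hprop _ hO2 hO
    · rcases CfsgLib.RankOneP.isCyclic_or_quaternion (CfsgLib.PCore.isPGroup_pCore q X) (fun x y hx hy hx1 => by
        obtain ⟨j, hj⟩ := Subgroup.mem_zpowers_iff.1 ((hall q hqp).mem_zpowers (CfsgLib.PCore.isPGroup_pCore q X) x.2 y.2
          (congrArg Subtype.val hx) (congrArg Subtype.val hy) (fun h => hx1 (Subtype.ext h)))
        exact ⟨j, Subtype.ext hj⟩) with h | ⟨h, -⟩
      · exact h
      · exact absurd h hq2
  have hPF := hF.trans CfsgLib.Hall.centralizer_fitting_le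
  haveI := CfsgLib.Components.fittingSubgroup_normal (G := X)
  refine ⟨fun x hx g => ?_⟩
  set y := g * x * g⁻¹ with hy
  have hyF : y ∈ Cfsg.fittingSubgroup X := (inferInstance : (Cfsg.fittingSubgroup X).Normal).conj_mem x (hPF hx) g
  have hyp : IsPGroup 2 (Subgroup.zpowers y) := by
    obtain ⟨m, hm⟩ := P.2 ⟨x, hx⟩
    have hord : orderOf y ∣ 2 ^ m := orderOf_dvd_of_pow_eq_one (by
      rw [hy, conj_pow, show x ^ 2 ^ m = 1 by simpa using congrArg Subtype.val hm, mul_one, mul_inv_cancel])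
    obtain ⟨l, -, hl⟩ := (Nat.dvd_prime_pow h2).1 hord
    exact IsPGroup.of_card (n := l) (by rw [Nat.card_zpowers, hl])
  have hn : Subgroup.zpowers y ≤ Subgroup.normalizer ((P : Subgroup X) : Set X) := by
    refine le_trans ?_ (Subgroup.centralizer_le_normalizer _)
    refine Subgroup.zpowers_le.2 (Subgroup.mem_centralizer_iff.2 fun z hz => ?_)
    exact (Subgroup.mem_centralizer_iff.1 (hF hz) y hyF).symm
  exact (P.3 (P.2.to_sup_of_normal_left' hyp hn) le_sup_left).le (Subgroup.mem_sup_right (Subgroup.mem_zpowers y))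

end CfsgLib.BGroupsAll
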