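import Cfsg.Agent.BGroups.DGroups
import Cfsg.Agent.BGroups.Basic
import Cfsg.Agent.Hall.StructBatch2
import Cfsg.Agent.Components.Cores

/-!
The Sylow subgroups of a solvable group in which abelian subgroups of equal order are conjugate.
-/

set_option autoImplicit false
set_option linter.style.haveILetI false

namespace CfsgLib.BGroupsAll

open CfsgLib.BGroups

universe u

variable {X : Type u} [Group X]

/-- A normal elementary abelian Sylow subgroup which is not cyclic. -/
def BigAt (p : ℕ) (X : Type*) [Group X] : Prop :=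
  ∃ V : Subgroup X, V.Normal ∧ IsPGroup p V ∧ IsMulCommutative V ∧ (∀ x ∈ V, x ^ p = 1) ∧ p ^ 2 ∣ Nat.card V ∧
    ¬ p ∣ V.index

/-- The Sylow subgroups have a unique subgroup of order `p`. -/
def SmallAt (p : ℕ) (X : Type*) [Group X] : Prop :=
  ∀ P : Sylow p X, CfsgLib.RankOneP.UniqueOrderP p ↥(P : Subgroup X)

theorem SmallAt.mem_zpowers [Finite X] {p : ℕ} [Fact p.Prime] (h : SmallAt p X) {Q : Subgroup X} (hQ : IsPGroup p Q)
    {x y : X} (hx : x ∈ Q) (hy : y ∈ Q) (hxp : x ^ p = 1) (hyp : y ^ p = 1) (hx1 : x ≠ 1) : y ∈ Subgroup.zpowers x := by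
  obtain ⟨P, hP⟩ := hQ.exists_le_sylow
  obtain ⟨k, hk⟩ := h P ⟨x, hP hx⟩ ⟨y, hP hy⟩ (Subtype.ext hxp) (Subtype.ext hyp)
    (fun e => hx1 (congrArg Subtype.val e))
  exact ⟨k, congrArg Subtype.val hk⟩

theorem SmallAt.card_le [Finite X] {p : ℕ} [Fact p.Prime] (h : SmallAt p X) {Q : Subgroup X} (hQ : IsPGroup p Q)
    (hexp : ∀ x ∈ Q, x ^ p = 1) : Nat.card Q ≤ p := by
  by_cases hb : Q = ⊥
  · rw [hb, Subgroup.card_bot]; exact (Fact.out : p.Prime).one_le
  obtain ⟨x, hx, hx1⟩ := Q.bot_or_exists_ne_one.resolve_left hb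
  refine le_trans (Subgroup.card_le_of_le fun y hy => h.mem_zpowers hQ hx hy (hexp x hx) (hexp y hy) hx1) ?_
  rw [Nat.card_zpowers, orderOf_eq_prime (hexp x hx) hx1]

theorem pgroup_mem_of_coprime_index {p : ℕ} [Fact p.Prime] {N : Subgroup X} [N.Normal] (hidx : ¬ p ∣ N.index)
    {x : X} {m : ℕ} (hx : x ^ p ^ m = 1) : x ∈ N := by
  rw [← QuotientGroup.eq_one_iff, ← orderOf_eq_one_iff]
  have h1 : orderOf (x : X ⧸ N) ∣ p ^ m := orderOf_dvd_of_pow_eq_one (by rw [← QuotientGroup.mk_pow, hx, QuotientGroup.mk_one])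
  have h2 : orderOf (x : X ⧸ N) ∣ N.index := Subgroup.index_eq_card N ▸ orderOf_dvd_natCard _
  exact Nat.eq_one_of_dvd_coprimes (((Fact.out : p.Prime).coprime_iff_not_dvd.2 hidx).pow_left m) h1 h2

theorem card_inf_centralizer_le [Finite X] (hB : BCond X) (N : Subgroup X) [N.Normal] {r : ℕ} [Fact r.Prime]
    {u z : X} (hu : u ^ r = 1) (hu1 : u ≠ 1) (hz : z ^ r = 1) (hz1 : z ≠ 1) :
    Nat.card ↥(N ⊓ Subgroup.centralizer {u}) ≤ Nat.card ↥(N ⊓ Subgroup.centralizer {z}) := by
  obtain ⟨g, hg⟩ := hB (Subgroup.zpowers u) (Subgroup.zpowers z) inferInstance inferInstance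
    (by rw [Nat.card_zpowers, Nat.card_zpowers, orderOf_eq_prime hu hu1, orderOf_eq_prime hz hz1])
  obtain ⟨b, hb, hbz⟩ := (hg ▸ Subgroup.mem_zpowers z : z ∈ (Subgroup.zpowers u).map (MulAut.conj g).toMonoidHom)
  obtain ⟨i, rfl⟩ := Subgroup.mem_zpowers_iff.1 hb
  rw [← Subgroup.card_map_of_injective (f := (MulAut.conj g).toMonoidHom) (MulAut.conj g).injective]
  refine Subgroup.card_le_of_le ?_
  rintro _ ⟨x, ⟨hxN, hxu⟩, rfl⟩
  refine Subgroup.mem_inf.2 ⟨(inferInstance : N.Normal).conj_mem x hxN g, Subgroup.mem_centralizer_singleton_iff.2 ?_⟩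
  have hc : Commute x (u ^ i) := (show Commute x u from Subgroup.mem_centralizer_singleton_iff.1 hxu).zpow_right i
  rw [← hbz]
  show (MulAut.conj g) x * (MulAut.conj g) (u ^ i) = (MulAut.conj g) (u ^ i) * (MulAut.conj g) x
  rw [← map_mul, ← map_mul, hc.eq]

/-- Every prime is small or big. -/
theorem small_or_big : ∀ (n : ℕ) (X : Type u) [Group X] [Finite X], Group.IsSolvable X → BCond X →
    Nat.card X = n → ∀ p : ℕ, p.Prime → SmallAt p X ∨ BigAt p X := by
  intro n
  induction n using Nat.strong_induction_on with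
  | _ n ih =>
    intro X _ _ hsol hB hn p hp
    haveI := hsol
    haveI := Fact.mk hp
    rcases subsingleton_or_nontrivial X with hX | hX
    · exact Or.inl fun P x y _ _ hx1 => absurd (Subsingleton.elim x 1) hx1
    obtain ⟨V, hV, -⟩ := CfsgLib.Hall.exists_isMinNormal_le (⊤ : Subgroup X) top_ne_bot
    haveI := hV.1
    obtain ⟨r, hr, hab, hVr, hexp⟩ := hV.elementaryAbelian
    haveI := Fact.mk hr
    haveI := hab
    obtain ⟨v, hv, hv1⟩ := V.bot_or_exists_ne_one.resolve_left hV.2.1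
    have hvo : orderOf v = r := orderOf_eq_prime (hexp v hv) hv1
    obtain ⟨k, hk⟩ := IsPGroup.iff_card.1 hVr
    by_cases hrp : r = p
    · subst hrp
      have hk0 : k ≠ 0 := fun e => hV.2.1 (Subgroup.eq_bot_of_card_eq _ (by rw [hk, e, pow_zero]))
      by_cases hk1 : k = 1
      · subst hk1
        rw [pow_one] at hk
        refine Or.inl fun P x y hx hy hx1 => ?_
        have hxV : (x : X) ∈ V := mem_of_pow_eq_one hB hv hvo (congrArg Subtype.val hx)
        have hyV : (y : X) ∈ V := mem_of_pow_eq_one hB hv hvo (congrArg Subtype.val hy)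
        have e : Subgroup.zpowers (x : X) = V := Subgroup.eq_of_le_of_card_ge (Subgroup.zpowers_le.2 hxV)
          (by rw [Nat.card_zpowers, hk, orderOf_eq_prime (congrArg Subtype.val hx) (fun h => hx1 (Subtype.ext h))])
        obtain ⟨j, hj⟩ := e.ge hyV
        exact ⟨j, Subtype.ext hj⟩
      · refine Or.inr ⟨V, inferInstance, hVr, hab, hexp, hk ▸ pow_dvd_pow r (by omega), ?_⟩
        let P : Sylow r X := default
        have hPV : (P : Subgroup X) = V := by
          refine le_antisymm (fun x hx => ?_) (hVr.le_sylow_of_normal P)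
          obtain ⟨m, hm⟩ := P.2 ⟨x, hx⟩
          exact pElement_mem hB hab hexp (hk ▸ pow_dvd_pow r (by omega)) hv hvo (m := m)
            (by simpa using congrArg Subtype.val hm)
        exact hPV ▸ P.not_dvd_index
    let π := QuotientGroup.mk' V
    have hπ : Function.Surjective π := QuotientGroup.mk'_surjective V
    have hlt : Nat.card (X ⧸ V) < n := by
      rw [← hn, ← Subgroup.index_eq_card, ← V.card_mul_index]
      have h3 : 0 < V.index := Nat.pos_of_ne_zero Subgroup.index_ne_zero_of_finite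
      exact lt_mul_of_one_lt_left h3 (Finite.one_lt_card_iff_nontrivial.2 ((Subgroup.nontrivial_iff_ne_bot V).2 hV.2.1))
    haveI : Group.IsSolvable (X ⧸ V) := Group.isSolvable_of_surjective hπ
    have hinjQ : ∀ Q : Subgroup X, IsPGroup p Q → ∀ a ∈ Q, ∀ b ∈ Q, π a = π b → a = b := by
      intro Q hQ a ha b hb h
      have h1 : a⁻¹ * b ∈ V ⊓ Q := Subgroup.mem_inf.2 ⟨QuotientGroup.eq.1 h, mul_mem (inv_mem ha) hb⟩
      rw [disjoint_iff.1 (IsPGroup.disjoint_of_ne r p hrp V Q hVr hQ), Subgroup.mem_bot] at h1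
      exact inv_mul_eq_one.1 h1
    rcases ih _ hlt (X ⧸ V) inferInstance (quotient_bcond _ X hsol hB rfl V) rfl p hp with hS | hBig
    · refine Or.inl fun P x y hx hy hx1 => ?_
      have hxy := hS.mem_zpowers (P.2.map π) (x := π x) (y := π y) ⟨x, x.2, rfl⟩ ⟨y, y.2, rfl⟩
        (by rw [← map_pow]; exact (congrArg π (congrArg Subtype.val hx)).trans (map_one π))
        (by rw [← map_pow]; exact (congrArg π (congrArg Subtype.val hy)).trans (map_one π))
        (fun e => hx1 (Subtype.ext (hinjQ _ P.2 _ x.2 1 (one_mem _) (e.trans (map_one π).symm))))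
      obtain ⟨j, hj⟩ := Subgroup.mem_zpowers_iff.1 hxy
      exact ⟨j, Subtype.ext (hinjQ _ P.2 _ (zpow_mem x.2 j) _ y.2 (by rw [map_zpow, hj]))⟩
    obtain ⟨Vb, hVbn, hVbp, hVba, hVbe, hVbb, hVbi⟩ := hBig
    haveI := hVbn
    haveI := hVba
    let P : Sylow p X := default
    set N := Vb.comap π with hN
    haveI : N.Normal := hVbn.comap π
    have hmapP : (P : Subgroup X).map π = Vb := by
      refine le_antisymm ?_ ?_
      · rintro _ ⟨x, hx, rfl⟩
        obtain ⟨m, hm⟩ := P.2 ⟨x, hx⟩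
        exact pgroup_mem_of_coprime_index hVbi (m := m)
          (by rw [← map_pow]; exact (congrArg π (congrArg Subtype.val hm)).trans (map_one π))
      · exact hVbp.le_sylow_of_normal (P.mapSurjective hπ)
    have hPN : (P : Subgroup X) ≤ N := Subgroup.map_le_iff_le_comap.1 hmapP.le
    have hPc : ∀ a ∈ (P : Subgroup X), ∀ b ∈ (P : Subgroup X), a * b = b * a := fun a ha b hb =>
      hinjQ _ P.2 _ (mul_mem ha hb) _ (mul_mem hb ha) (by
        rw [map_mul, map_mul]
        exact congrArg Subtype.val (mul_comm' (⟨π a, hmapP.le ⟨a, ha, rfl⟩⟩ : Vb) ⟨π b, hmapP.le ⟨b, hb, rfl⟩⟩))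
    have hPe : ∀ a ∈ (P : Subgroup X), a ^ p = 1 := fun a ha =>
      hinjQ _ P.2 _ (pow_mem ha p) 1 (one_mem _) (by rw [map_pow, map_one]; exact hVbe _ (hmapP.le ⟨a, ha, rfl⟩))
    haveI hPcomm : IsMulCommutative (P : Subgroup X) := ⟨⟨fun a b => Subtype.ext (hPc a a.2 b b.2)⟩⟩
    have hPbig : p ^ 2 ∣ Nat.card (P : Subgroup X) :=
      hVbb.trans (hmapP ▸ Subgroup.card_map_dvd (P : Subgroup X) π)
    have hNsup : N = (P : Subgroup X) ⊔ V := by
      rw [hN, ← hmapP, Subgroup.comap_map_eq, QuotientGroup.ker_mk']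
    by_cases hPC : (P : Subgroup X) ≤ Subgroup.centralizer (V : Set X)
    · refine Or.inr ⟨P, ⟨fun x hx g => ?_⟩, P.2, hPcomm, hPe, hPbig, P.not_dvd_index⟩
      have hgN : g * x * g⁻¹ ∈ N := (inferInstance : N.Normal).conj_mem x (hPN hx) g
      rw [hNsup, Subgroup.mem_sup_of_normal_right] at hgN
      obtain ⟨a, ha, w, hw, he⟩ := hgN
      have hcomm : Commute a w := (Subgroup.mem_centralizer_iff.1 (hPC ha) w hw).symm
      have hpw : (g * x * g⁻¹) ^ p = 1 := by rw [conj_pow, hPe x hx, mul_one, mul_inv_cancel]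
      rw [← he, hcomm.mul_pow, hPe a ha, one_mul] at hpw
      have hw1 : w = 1 := by
        rw [← orderOf_eq_one_iff]
        exact Nat.eq_one_of_dvd_coprimes ((Nat.coprime_primes hp hr).2 (Ne.symm hrp))
          (orderOf_dvd_of_pow_eq_one hpw) (orderOf_dvd_of_pow_eq_one (hexp w hw))
      rw [← he, hw1, mul_one]
      exact ha
    exfalso
    have hnc : ∀ a ∈ (P : Subgroup X), a ≠ 1 → a ∉ Subgroup.centralizer (V : Set X) := by
      intro a ha ha1 hac
      exact hPC fun b hb => mem_of_pow_eq_one hB hac (orderOf_eq_prime (hPe a ha) ha1) (hPe b hb)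
    have hPnorm : (P : Subgroup X) ≤ Subgroup.normalizer (V : Set X) := by
      rw [Subgroup.normalizer_eq_top]; exact le_top
    -- stabilisers in `P` of non-trivial vectors have one order
    have hcard : ∀ u ∈ V, Nat.card ↥(N ⊓ Subgroup.centralizer {u}) =
        Nat.card V * Nat.card ↥((P : Subgroup X) ⊓ Subgroup.centralizer {u}) := by
      intro u hu
      have hVu : V ≤ N ⊓ Subgroup.centralizer {u} := fun x hx =>
        Subgroup.mem_inf.2 ⟨hNsup ▸ Subgroup.mem_sup_right hx,
          Subgroup.mem_centralizer_singleton_iff.2 (congrArg Subtype.val (mul_comm' (⟨x, hx⟩ : V) ⟨u, hu⟩))⟩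
      have e : N ⊓ Subgroup.centralizer {u} =
          (((P : Subgroup X) ⊓ Subgroup.centralizer {u}).map π).comap π := by
        rw [Subgroup.comap_map_eq, QuotientGroup.ker_mk']
        refine le_antisymm (fun x hx => ?_) (sup_le (inf_le_inf_right _ hPN) hVu)
        obtain ⟨hxN, hxu⟩ := Subgroup.mem_inf.1 hx
        rw [hNsup, Subgroup.mem_sup_of_normal_right] at hxN
        obtain ⟨a, ha, w, hw, rfl⟩ := hxN
        refine Subgroup.mul_mem_sup (Subgroup.mem_inf.2 ⟨ha, ?_⟩) hw
        have h2 := (Subgroup.mem_inf.1 (hVu hw)).2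
        simpa using mul_mem hxu (inv_mem h2)
      rw [e, CfsgLib.PCore.card_comap_mk']
      congr 1
      refine (Nat.card_congr (Equiv.ofBijective (π.subgroupMap _) ⟨?_, π.subgroupMap_surjective _⟩)).symm
      intro a b h
      exact Subtype.ext (hinjQ _ P.2 _ (Subgroup.mem_inf.1 a.2).1 _ (Subgroup.mem_inf.1 b.2).1 (congrArg Subtype.val h))
    have hst : ∀ u ∈ V, u ≠ 1 → ∀ z ∈ V, z ≠ 1 → Nat.card ↥((P : Subgroup X) ⊓ Subgroup.centralizer {u}) ≤
        Nat.card ↥((P : Subgroup X) ⊓ Subgroup.centralizer {z}) := by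
      intro u hu hu1 z hz hz1
      have h := card_inf_centralizer_le hB N (hexp u hu) hu1 (hexp z hz) hz1
      rw [hcard u hu, hcard z hz] at h
      exact Nat.le_of_mul_le_mul_left h Nat.card_pos
    have hfpf : ∀ a ∈ (P : Subgroup X), a ≠ 1 → V ⊓ Subgroup.centralizer {a} = ⊥ := by
      intro a ha ha1
      by_contra hne
      obtain ⟨u, hu, hu1⟩ := (V ⊓ Subgroup.centralizer {a}).bot_or_exists_ne_one.resolve_left hne
      obtain ⟨huV, hua⟩ := Subgroup.mem_inf.1 hu
      have hua' : Commute u a := Subgroup.mem_centralizer_singleton_iff.1 hua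
      refine hnc a ha ha1 (Subgroup.mem_centralizer_iff.2 fun t ht => ?_)
      -- the commutator map
      let f : ↥V →* ↥V :=
        { toFun := fun x => ⟨a * x * a⁻¹ * (x : X)⁻¹, mul_mem (hV.1.conj_mem _ x.2 a) (inv_mem x.2)⟩
          map_one' := Subtype.ext (by simp)
          map_mul' := fun x y => Subtype.ext (by
            have c : ∀ s t : X, s ∈ V → t ∈ V → s * t = t * s := fun s t hs ht =>
              congrArg Subtype.val (mul_comm' (⟨s, hs⟩ : V) ⟨t, ht⟩)
            simp only [Subgroup.coe_mul]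
            calc a * ((x : X) * y) * a⁻¹ * ((x : X) * y)⁻¹
                = (a * x * a⁻¹) * ((a * y * a⁻¹) * (((x : X) * y)⁻¹)) := by group
              _ = (a * x * a⁻¹) * ((a * y * a⁻¹) * ((x : X)⁻¹ * (y : X)⁻¹)) := by
                  rw [mul_inv_rev, c _ _ (inv_mem y.2) (inv_mem x.2)]
              _ = (a * x * a⁻¹) * (((a * y * a⁻¹) * (x : X)⁻¹) * (y : X)⁻¹) := by group
              _ = (a * x * a⁻¹) * (((x : X)⁻¹ * (a * y * a⁻¹)) * (y : X)⁻¹) := by
                  rw [c _ _ (hV.1.conj_mem _ y.2 a) (inv_mem x.2)]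
              _ = _ := by group) }
      have hff : ∀ x : ↥V, f (f x) = 1 → f x = 1 := by
        intro x hx
        have hcA : Commute a ((f x : ↥V) : X) :=
          mul_inv_eq_iff_eq_mul.1 (mul_inv_eq_one.1 (congrArg Subtype.val hx :))
        have hit : ∀ i : ℕ, a ^ i * (x : X) * (a ^ i)⁻¹ = ((f x : ↥V) : X) ^ i * x := by
          intro i
          induction i with
          | zero => simp
          | succ i ih =>
            calc a ^ (i + 1) * (x : X) * (a ^ (i + 1))⁻¹ = a * (a ^ i * x * (a ^ i)⁻¹) * a⁻¹ := by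
                  rw [pow_succ']; group
              _ = (a * ((f x : ↥V) : X) ^ i * a⁻¹) * (a * x * a⁻¹) := by rw [ih]; group
              _ = ((f x : ↥V) : X) ^ i * (a * x * a⁻¹) := by
                  rw [(hcA.pow_right i).eq, mul_inv_cancel_right]
              _ = ((f x : ↥V) : X) ^ i * (((f x : ↥V) : X) * x) := by
                  show _ = ((f x : ↥V) : X) ^ i * (a * x * a⁻¹ * (x : X)⁻¹ * x)
                  rw [inv_mul_cancel_right]
              _ = _ := by rw [pow_succ, mul_assoc]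
        have h1 := hit p
        rw [hPe a ha, one_mul, inv_one, mul_one, eq_comm, mul_eq_right] at h1
        refine Subtype.ext (orderOf_eq_one_iff.1 ?_)
        exact Nat.eq_one_of_dvd_coprimes ((Nat.coprime_primes hp hr).2 (Ne.symm hrp))
          (orderOf_dvd_of_pow_eq_one h1) (orderOf_dvd_of_pow_eq_one (hexp _ (f x).2))
      by_contra hta
      set w : X := ((f ⟨t, ht⟩ : ↥V) : X) with hw
      have hw1 : w ≠ 1 := fun h => hta (mul_inv_eq_iff_eq_mul.1 (mul_inv_eq_one.1 h)).symm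
      have hz1 : u * w ≠ 1 := fun h => by
        have h1 : f (f ⟨t, ht⟩) = 1 := by
          refine Subtype.ext ?_
          show a * w * a⁻¹ * w⁻¹ = 1
          rw [eq_inv_of_mul_eq_one_right h, (hua'.symm.inv_right).eq, mul_inv_cancel_right, mul_inv_cancel]
        exact hw1 (congrArg Subtype.val (hff _ h1))
      have hle : (P : Subgroup X) ⊓ Subgroup.centralizer {u * w} ≤ (P : Subgroup X) ⊓ Subgroup.centralizer {u} := by
        intro b hb
        obtain ⟨hbP, hbz⟩ := Subgroup.mem_inf.1 hb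
        have hbz' : Commute b (u * w) := Subgroup.mem_centralizer_singleton_iff.1 hbz
        have hab' : Commute a b := hPc a ha b hbP
        let bt : ↥V := ⟨b * t * b⁻¹, hV.1.conj_mem _ ht b⟩
        let u' : ↥V := ⟨b * u * b⁻¹, hV.1.conj_mem _ huV b⟩
        have hbw : ((f bt : ↥V) : X) = b * w * b⁻¹ := by
          show a * (b * t * b⁻¹) * a⁻¹ * (b * t * b⁻¹)⁻¹ = b * (a * t * a⁻¹ * t⁻¹) * b⁻¹
          calc _ = (a * b) * t * (a * b)⁻¹ * (b * t * b⁻¹)⁻¹ := by group
            _ = (b * a) * t * (b * a)⁻¹ * (b * t * b⁻¹)⁻¹ := by rw [hab'.eq]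
            _ = _ := by group
        have heq : u'⁻¹ * ⟨u, huV⟩ = f bt * (f ⟨t, ht⟩)⁻¹ := by
          rw [inv_mul_eq_iff_eq_mul, ← mul_assoc, eq_mul_inv_iff_mul_eq]
          refine Subtype.ext ?_
          show u * w = b * u * b⁻¹ * ((f bt : ↥V) : X)
          rw [hbw]
          calc u * w = b * (u * w) * b⁻¹ := by rw [hbz'.eq, mul_inv_cancel_right]
            _ = _ := by group
        have hk1 : f (u'⁻¹ * ⟨u, huV⟩) = 1 := by
          have hf : ∀ y : ↥V, Commute a (y : X) → f y = 1 := fun y hy =>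
            Subtype.ext (by show a * y * a⁻¹ * (y : X)⁻¹ = 1; rw [hy.eq, mul_inv_cancel_right, mul_inv_cancel])
          rw [map_mul, map_inv, hf ⟨u, huV⟩ hua'.symm, hf u' ?_, inv_one, one_mul]
          exact ((hab'.mul_right hua'.symm).mul_right hab'.inv_right)
        rw [heq, ← map_inv, ← map_mul] at hk1
        have hk2 := hff _ hk1
        rw [map_mul, map_inv, ← heq, inv_mul_eq_one] at hk2
        refine Subgroup.mem_inf.2 ⟨hbP, Subgroup.mem_centralizer_singleton_iff.2 ?_⟩
        exact mul_inv_eq_iff_eq_mul.1 (congrArg Subtype.val hk2 :)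
      have heq' := Subgroup.eq_of_le_of_card_ge hle (hst u huV hu1 _ (mul_mem huV (f ⟨t, ht⟩).2) hz1)
      have haz : a ∈ (P : Subgroup X) ⊓ Subgroup.centralizer {u * w} :=
        heq' ▸ Subgroup.mem_inf.2 ⟨ha, Subgroup.mem_centralizer_singleton_iff.2 hua'.symm⟩
      have h2 : Commute a (u * w) := Subgroup.mem_centralizer_singleton_iff.1 (Subgroup.mem_inf.1 haz).2
      have h3 : Commute a w := by
        have := hua'.symm.inv_right.mul_right h2
        simpa using this
      refine hw1 (congrArg Subtype.val (hff ⟨t, ht⟩ (Subtype.ext ?_)))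
      show a * w * a⁻¹ * w⁻¹ = 1
      rw [h3.eq, mul_inv_cancel_right, mul_inv_cancel]
    have hcyc := CfsgLib.Hall.Struct.fpf_abelian_cyclic (P : Subgroup X) V hV.2.1 hPnorm hfpf (Or.inl hPcomm)
    obtain ⟨c, hc⟩ := hcyc.exists_ofOrder_eq_natCard
    have h1 : orderOf c ∣ p := orderOf_dvd_of_pow_eq_one (Subtype.ext (hPe c c.2))
    rw [hc] at h1
    have h2 := Nat.le_of_dvd hp.pos (hPbig.trans h1)
    have := hp.two_le
    nlinarith

end CfsgLib.BGroupsAll
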